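import Cfsg.Agent.H791.FreeAct

/-!
# A model of multiple HNN extensions inside `FreeGroup X ⋊ W` (helper791)

For a subgroup `S` of `W` and elements `σ i ∈ W` conjugating `A i ≤ S` onto `B i ≤ S`, the group `D.G` is generated by
`S` and the elements `t i = x_i σ_i`, where `x_i` is a free generator with stabilizer `B i` in `W`.

* `exists_red` : every element of `D.G` is a reduced word;
* `exists_inr_of_left` : `D.G ∩ W = S`;
* `exists_conj_of_finite` : every finite subgroup of `D.G` is conjugate in `D.G` to a subgroup of `S`.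
-/

set_option autoImplicit false

namespace Cfsg.Agent.H791.Hnn

open FreeAct SemidirectProduct

/-- HNN data -/
structure Data (W I : Type*) [Group W] where
  /-- the base -/
  S : Subgroup W
  /-- the sources -/
  A : I → Subgroup W
  /-- the targets -/
  B : I → Subgroup W
  /-- the conjugating elements -/
  σ : I → W
  hA : ∀ i, A i ≤ S
  hB : ∀ i, B i ≤ S
  hσ : ∀ i x, x ∈ A i ↔ σ i * x * (σ i)⁻¹ ∈ B i

variable {W I : Type*} [Group W] (D : Data W I)

namespace Data

/-- the basis of the free group -/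
abbrev X : Type _ := Σ i, W ⧸ D.B i

/-- the stable letters -/
def t (i : I) : E D.X W := ⟨FreeGroup.of ⟨i, ((1 : W) : W ⧸ D.B i)⟩, D.σ i⟩

/-- the stable letters and their inverses -/
def tau (i : I) (b : Bool) : E D.X W := bif b then D.t i else (D.t i)⁻¹

/-- their first letters -/
def ell (i : I) (b : Bool) : D.X := ⟨i, ((bif b then 1 else (D.σ i)⁻¹ : W) : W ⧸ D.B i)⟩

/-- the stabilizers of the letters -/
def dom (i : I) (b : Bool) : Subgroup W := bif b then D.B i else D.A i

/-- the value of the conjugation by a stable letter -/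
def dval (i : I) (b : Bool) (s : W) : W := bif b then (D.σ i)⁻¹ * s * D.σ i else D.σ i * s * (D.σ i)⁻¹

variable {D}

theorem dom_le (i : I) (b : Bool) : D.dom i b ≤ D.S := by
  cases b
  · exact D.hA i
  · exact D.hB i

theorem tau_inv (i : I) (b : Bool) : (D.tau i b)⁻¹ = D.tau i (!b) := by
  cases b <;> simp [tau]

theorem smul_ell_iff (s : W) (i j : I) (b : Bool) :
    s • D.ell j b = D.ell i b ↔ j = i ∧ s ∈ D.dom i b := by
  have key : s • D.ell i b = D.ell i b ↔ s ∈ D.dom i b := by
    rw [ell, Sigma.smul_mk, Sigma.mk.injEq]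
    simp only [heq_eq_eq, true_and]
    rw [MulAction.Quotient.smul_mk, QuotientGroup.eq]
    cases b
    · show (s • (D.σ i)⁻¹)⁻¹ * (D.σ i)⁻¹ ∈ D.B i ↔ s ∈ D.A i
      rw [D.hσ, ← Subgroup.inv_mem_iff]
      have : ((s • (D.σ i)⁻¹)⁻¹ * (D.σ i)⁻¹)⁻¹ = D.σ i * s * (D.σ i)⁻¹ := by
        rw [smul_eq_mul]; group
      rw [this]
    · show (s • (1 : W))⁻¹ * 1 ∈ D.B i ↔ s ∈ D.B i
      rw [smul_eq_mul, mul_one, mul_one, Subgroup.inv_mem_iff]
  constructor
  · intro h
    have h1 : j = i := congrArg Sigma.fst h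
    subst h1
    exact ⟨rfl, key.1 h⟩
  · rintro ⟨rfl, h⟩
    exact key.2 h

theorem F_tau (i : I) (b : Bool) : F (D.tau i b) = some (D.ell i b, b) := by
  cases b
  · show F (D.t i)⁻¹ = _
    rw [F_inv, fst_inv]
    show sm (D.σ i)⁻¹ (Option.map (fun a => (a.1, !a.2)) (word (FreeGroup.of _)).getLast?) = _
    rw [word_of]
    show some ((D.σ i)⁻¹ • (⟨i, ((1 : W) : W ⧸ D.B i)⟩ : D.X), false) =
      some (⟨i, (((D.σ i)⁻¹ : W) : W ⧸ D.B i)⟩, false)
    rw [Sigma.smul_mk, MulAction.Quotient.smul_mk, smul_eq_mul, mul_one]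
  · show F (D.t i) = _
    rw [F, fst]
    show (word (FreeGroup.of _)).head? = _
    rw [word_of]
    rfl

theorem F_inr_tau (s : W) (i : I) (b : Bool) :
    F (inr s * D.tau i b) = some (s • D.ell i b, b) := by
  rw [F_inr_mul, F_tau]
  rfl

theorem left_inr_tau_ne (s : W) (i : I) (b : Bool) : (inr s * D.tau i b).left ≠ 1 := by
  intro h
  rw [← F_eq_none, F_inr_tau] at h
  cases h

theorem length_tau (i : I) (b : Bool) : (word (D.tau i b).left).length = 1 := by
  cases b
  · show (word (D.t i)⁻¹.left).length = 1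
    rw [inv_left, word_act, List.length_map, word_inv, FreeGroup.invRev_length]
    show (word (FreeGroup.of _)).length = 1
    rw [word_of]
    rfl
  · show (word (FreeGroup.of _)).length = 1
    rw [word_of]
    rfl

theorem comm_t {i : I} {s : W} (hs : s ∈ D.B i) :
    inr s * D.t i = D.t i * inr ((D.σ i)⁻¹ * s * D.σ i) := by
  apply SemidirectProduct.ext
  · rw [left_inr_mul, left_mul_inr]
    show act s (FreeGroup.of _) = FreeGroup.of _
    rw [act_of]
    congr 1
    exact (smul_ell_iff s i i true).2 ⟨rfl, hs⟩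
  · show s * D.σ i = D.σ i * ((D.σ i)⁻¹ * s * D.σ i)
    group

theorem dval_mem {i : I} {b : Bool} {s : W} (hs : s ∈ D.dom i b) : D.dval i b s ∈ D.dom i (!b) := by
  cases b
  · exact (D.hσ i s).1 hs
  · show (D.σ i)⁻¹ * s * D.σ i ∈ D.A i
    rw [D.hσ]
    have : D.σ i * ((D.σ i)⁻¹ * s * D.σ i) * (D.σ i)⁻¹ = s := by group
    rw [this]
    exact hs

theorem conj_tau {i : I} {b : Bool} {s : W} (hs : s ∈ D.dom i b) :
    (D.tau i b)⁻¹ * inr s * D.tau i b = inr (D.dval i b s) := by
  cases b
  · show (D.t i)⁻¹⁻¹ * inr s * (D.t i)⁻¹ = inr (D.σ i * s * (D.σ i)⁻¹)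
    have h1 := comm_t ((D.hσ i s).1 hs)
    have h2 : (D.σ i)⁻¹ * (D.σ i * s * (D.σ i)⁻¹) * D.σ i = s := by group
    rw [h2] at h1
    rw [inv_inv, ← h1, mul_inv_cancel_right]
  · show (D.t i)⁻¹ * inr s * D.t i = inr ((D.σ i)⁻¹ * s * D.σ i)
    rw [mul_assoc, comm_t hs, inv_mul_cancel_left]

variable (D) in
/-- reduced words -/
inductive Red : E D.X W → ℕ → Prop
  | base {s : W} : s ∈ D.S → Red (inr s) 0
  | step {s : W} {i : I} {b : Bool} {g : E D.X W} {n : ℕ} : s ∈ D.S → Red g n →
      F (D.tau i b)⁻¹ ≠ F g → Red (inr s * D.tau i b * g) (n + 1)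

theorem F_inv_inr_tau (s : W) (i : I) (b : Bool) :
    F (inr s * D.tau i b)⁻¹ = F (D.tau i b)⁻¹ := by
  rw [mul_inv_rev, ← map_inv, F_mul_inr]

theorem F_step {s : W} {i : I} {b : Bool} {g : E D.X W} (h : F (D.tau i b)⁻¹ ≠ F g) :
    F (inr s * D.tau i b * g) = some (s • D.ell i b, b) := by
  rw [F_mul (left_inr_tau_ne s i b) (by rw [F_inv_inr_tau]; exact h), F_inr_tau]

theorem Red.length {g : E D.X W} {n : ℕ} (h : D.Red g n) : (word g.left).length = n := by
  induction h with
  | base hs => simp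
  | @step s i b g n hs hg hF ih =>
    rw [length_mul (fun _ => by rw [F_inv_inr_tau]; exact hF), ih, length_inr_mul, length_tau]
    omega

theorem Red.inr_mul {g : E D.X W} {n : ℕ} (h : D.Red g n) {s : W} (hs : s ∈ D.S) :
    D.Red (inr s * g) n := by
  cases h with
  | base hs' =>
    rw [← map_mul]
    exact Red.base (D.S.mul_mem hs hs')
  | step hs' hg hF =>
    rw [← mul_assoc, ← mul_assoc, ← map_mul]
    exact Red.step (D.S.mul_mem hs hs') hg hF

theorem Red.tau_mul {g : E D.X W} {n : ℕ} (h : D.Red g n) (i : I) (b : Bool) :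
    ∃ m, D.Red (D.tau i b * g) m := by
  by_cases hF : F (D.tau i b)⁻¹ = F g
  · cases h with
    | @base s hs =>
      exfalso
      have h1 : F (inr s : E D.X W) = none := by rw [F_eq_none]; exact left_inr s
      rw [h1, tau_inv, F_tau] at hF
      cases hF
    | @step s j c g n hs hg hF' =>
      rw [F_step hF', tau_inv, F_tau, Option.some_inj, Prod.mk.injEq] at hF
      obtain ⟨h1, h2⟩ := hF
      have h3 : c = !b := h2.symm
      subst h3
      obtain ⟨rfl, h4⟩ := (smul_ell_iff s i j (!b)).1 h1.symm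
      have h5 := conj_tau h4
      rw [tau_inv, Bool.not_not] at h5
      refine ⟨n, ?_⟩
      have h6 : D.tau j b * (inr s * D.tau j (!b) * g) = inr (D.dval j (!b) s) * g := by
        rw [← h5]; group
      rw [h6]
      exact hg.inr_mul (dom_le _ _ (dval_mem h4))
  · refine ⟨n + 1, ?_⟩
    have h1 := Red.step (D := D) D.S.one_mem h hF
    rwa [map_one, one_mul] at h1

variable (D) in
/-- the group -/
def G : Subgroup (E D.X W) :=
  Subgroup.closure (Set.range (fun s : D.S => (inr (s : W) : E D.X W)) ∪ Set.range D.t)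

theorem inr_mem {s : W} (hs : s ∈ D.S) : (inr s : E D.X W) ∈ D.G :=
  Subgroup.subset_closure (Or.inl ⟨⟨s, hs⟩, rfl⟩)

theorem t_mem (i : I) : D.t i ∈ D.G := Subgroup.subset_closure (Or.inr ⟨i, rfl⟩)

theorem tau_mem (i : I) (b : Bool) : D.tau i b ∈ D.G := by
  cases b
  · exact D.G.inv_mem (t_mem i)
  · exact t_mem i

theorem Red.mem {g : E D.X W} {n : ℕ} (h : D.Red g n) : g ∈ D.G := by
  induction h with
  | base hs => exact inr_mem hs
  | step hs _ _ ih => exact D.G.mul_mem (D.G.mul_mem (inr_mem hs) (tau_mem _ _)) ih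

/-- **Normal form.** -/
theorem exists_red {g : E D.X W} (hg : g ∈ D.G) : ∃ n, D.Red g n := by
  refine Subgroup.closure_induction_left (p := fun g _ => ∃ n, D.Red g n) ?_ ?_ ?_ hg
  · exact ⟨0, by rw [← map_one inr]; exact Red.base D.S.one_mem⟩
  · rintro x (⟨s, rfl⟩ | ⟨i, rfl⟩) y _ ⟨n, hn⟩
    · exact ⟨n, hn.inr_mul s.2⟩
    · exact hn.tau_mul i true
  · rintro x (⟨s, rfl⟩ | ⟨i, rfl⟩) y _ ⟨n, hn⟩
    · refine ⟨n, ?_⟩
      show D.Red ((inr (s : W))⁻¹ * y) n
      rw [← map_inv]
      exact hn.inr_mul (D.S.inv_mem s.2)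
    · exact hn.tau_mul i false

theorem exists_inr_of_left {g : E D.X W} (hg : g ∈ D.G) (h : g.left = 1) :
    ∃ s ∈ D.S, g = inr s := by
  obtain ⟨n, hn⟩ := exists_red hg
  have h1 := hn.length
  rw [h, word_one, List.length_nil] at h1
  subst h1
  cases hn with
  | @base s hs => exact ⟨s, hs, rfl⟩

/-- The first letter of an element of `G`. -/
theorem exists_first {g : E D.X W} (hg : g ∈ D.G) (h : g.left ≠ 1) :
    ∃ k ∈ D.G, F k = F g ∧ (word k.left).length = 1 := by
  obtain ⟨n, hn⟩ := exists_red hg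
  cases hn with
  | base hs => exact absurd (left_inr _) h
  | @step s i b g' n hs hg' hF =>
    refine ⟨inr s * D.tau i b, D.G.mul_mem (inr_mem hs) (tau_mem i b), ?_, ?_⟩
    · rw [F_inr_tau, F_step hF]
    · rw [length_inr_mul, length_tau]

/-- The step of the analysis of conjugations. -/
theorem step_conj {s : W} {i : I} {b : Bool} {g : E D.X W} (hF : F (D.tau i b)⁻¹ ≠ F g) {x y : W}
    (h : inr y * (inr s * D.tau i b * g) = (inr s * D.tau i b * g) * inr x) :
    s⁻¹ * y * s ∈ D.dom i b ∧ inr (D.dval i b (s⁻¹ * y * s)) * g = g * inr x := by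
  have h1 : sm y (F (inr s * D.tau i b * g)) = F (inr s * D.tau i b * g) := by
    rw [← F_inr_mul, h, F_mul_inr]
  rw [F_step hF] at h1
  have h2 : y • (s • D.ell i b) = s • D.ell i b := by
    have := congrArg (Option.map Prod.fst) h1
    simpa [sm] using this
  have h3 : (s⁻¹ * y * s) • D.ell i b = D.ell i b := by
    rw [mul_smul, mul_smul, h2, inv_smul_smul]
  have h4 := ((smul_ell_iff _ i i b).1 h3).2
  refine ⟨h4, ?_⟩
  rw [← conj_tau h4, map_mul, map_mul, map_inv]
  have h5 : (D.tau i b)⁻¹ * ((inr s)⁻¹ * inr y * inr s) * D.tau i b * g =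
      (D.tau i b)⁻¹ * (inr s)⁻¹ * (inr y * (inr s * D.tau i b * g)) := by group
  rw [h5, h]
  group

/-- **Finite subgroups.** -/
theorem exists_conj_of_finite (n : ℕ) : ∀ H : Subgroup (E D.X W), H ≤ D.G → Finite H →
    (∀ h ∈ H, (word h.left).length ≤ n) → ∃ g ∈ D.G, ∀ h ∈ H, ∃ s ∈ D.S, g * h * g⁻¹ = inr s := by
  induction n with
  | zero =>
    intro H hH _ hle
    refine ⟨1, D.G.one_mem, fun h hh => ?_⟩
    have h1 : h.left = 1 := word_eq_nil.1 (List.length_eq_zero_iff.1 (Nat.le_zero.1 (hle h hh)))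
    obtain ⟨s, hs, rfl⟩ := exists_inr_of_left (hH hh) h1
    exact ⟨s, hs, by group⟩
  | succ n ih =>
    intro H hH hfin hle
    by_cases hall : ∀ h ∈ H, h.left = 1
    · refine ⟨1, D.G.one_mem, fun h hh => ?_⟩
      obtain ⟨s, hs, rfl⟩ := exists_inr_of_left (hH hh) (hall h hh)
      exact ⟨s, hs, by group⟩
    push Not at hall
    obtain ⟨h0, hh0, hh0'⟩ := hall
    obtain ⟨k, hk, hkF, hk1⟩ := exists_first (hH hh0) hh0'
    obtain ⟨a, ha⟩ : ∃ a, word k.left = [a] := List.length_eq_one_iff.1 hk1
    have hka : k.left = FreeGroup.mk [a] := by rw [← ha, mk_word]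
    have hFk : F k = some a := by rw [F, fst, ha]; rfl
    -- the length of the conjugates
    have key : ∀ h ∈ H, (word (k⁻¹ * h * k).left).length ≤ n := by
      intro h hh
      have e1 : (k⁻¹ * h * k).left = act k.right⁻¹ (k.left⁻¹ * (h.left * act h.right k.left)) := by
        rw [mul_assoc, mul_left, inv_left, mul_left, inv_right, ← map_mul]
      rw [e1, word_act, List.length_map]
      by_cases hh1 : h.left = 1
      · -- `h` fixes the letter
        have h2 : (h * h0).left ≠ 1 := by
          intro h0'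
          obtain ⟨s, hs, rfl⟩ := exists_inr_of_left (hH hh) hh1
          rw [← F_eq_none, F_inr_mul] at h0'
          apply hh0'
          rw [← F_eq_none]
          cases hc : F h0 with
          | none => rfl
          | some c => rw [hc] at h0'; cases h0'
        have h3 := F_eq_of_mem hfin (H.mul_mem hh hh0) hh0 h2 hh0'
        obtain ⟨s, hs, rfl⟩ := exists_inr_of_left (hH hh) hh1
        rw [F_inr_mul, ← hkF, hFk] at h3
        have h4 : (s • a.1, a.2) = a := Option.some_inj.1 h3
        have h5 : act s k.left = k.left := by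
          rw [hka, act_mk, List.map_cons, List.map_nil, h4]
        rw [left_inr, right_inr, one_mul, h5, inv_mul_cancel, word_one]
        exact Nat.zero_le _
      · have h2 : F h = some a := by rw [← hFk, hkF]; exact F_eq_of_mem hfin hh hh0 hh1 hh0'
        have h3 : F h⁻¹ = some a := by
          rw [← hFk, hkF]; exact F_eq_of_mem hfin (H.inv_mem hh) hh0 (left_inv_ne hh1) hh0'
        obtain ⟨rest, hrest⟩ : ∃ rest, word h.left = a :: rest := by
          rw [F, fst] at h2
          cases hw : word h.left with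
          | nil => rw [hw] at h2; cases h2
          | cons c l =>
            rw [hw, List.head?_cons, Option.some_inj] at h2
            exact ⟨l, by rw [h2]⟩
        have h4 : (word h.left).getLast? = some (h.right • a.1, !a.2) := by
          rw [F_inv, fst_inv] at h3
          have h5 := congrArg (sm h.right) h3
          rw [← sm_mul, mul_inv_cancel, sm_one] at h5
          cases hc : (word h.left).getLast? with
          | none => rw [hc] at h5; cases h5
          | some c =>
            rw [hc, Option.map_some] at h5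
            have h6 : (c.1, !c.2) = (h.right • a.1, a.2) := Option.some_inj.1 h5
            rw [Prod.mk.injEq] at h6
            rw [Option.some_inj]
            refine Prod.ext h6.1 ?_
            show c.2 = !a.2
            rw [← h6.2, Bool.not_not]
        rw [hrest] at h4
        rcases List.eq_nil_or_concat rest with hr | ⟨w, c, hr⟩
        · exfalso
          rw [hr] at h4
          have h5 : a = (h.right • a.1, !a.2) := Option.some_inj.1 h4
          have h6 : a.2 = !a.2 := congrArg Prod.snd h5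
          cases h7 : a.2 <;> rw [h7] at h6 <;> cases h6
        · rw [hr, List.concat_eq_append] at h4 hrest
          have h5 : c = (h.right • a.1, !a.2) := by
            rw [← List.cons_append, List.getLast?_append] at h4
            simpa using h4
          have h6 : h.left = FreeGroup.mk (a :: (w ++ [c])) := by rw [← hrest, mk_word]
          have h7 : act h.right k.left = FreeGroup.mk [(h.right • a.1, a.2)] := by
            rw [hka, act_mk]; rfl
          have h8 : k.left⁻¹ * (h.left * act h.right k.left) = FreeGroup.mk w := by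
            have e2 : (FreeGroup.mk [c] : FreeGroup D.X) * FreeGroup.mk [(h.right • a.1, a.2)] = 1 := by
              have e3 : (FreeGroup.mk [c] : FreeGroup D.X) = (FreeGroup.mk [(h.right • a.1, a.2)])⁻¹ := by
                rw [FreeGroup.inv_mk, h5]; rfl
              rw [e3, inv_mul_cancel]
            have e4 : (FreeGroup.mk (a :: (w ++ [c])) : FreeGroup D.X) =
                FreeGroup.mk [a] * (FreeGroup.mk w * FreeGroup.mk [c]) := by
              rw [FreeGroup.mul_mk, FreeGroup.mul_mk]; rfl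
            rw [h7, h6, hka, e4]
            calc (FreeGroup.mk [a])⁻¹ * (FreeGroup.mk [a] * (FreeGroup.mk w * FreeGroup.mk [c]) *
                  FreeGroup.mk [(h.right • a.1, a.2)])
                = FreeGroup.mk w * (FreeGroup.mk [c] * FreeGroup.mk [(h.right • a.1, a.2)]) := by group
              _ = FreeGroup.mk w := by rw [e2, mul_one]
          rw [h8]
          refine (length_word_mk_le w).trans ?_
          have h9 := hle h hh
          rw [hrest] at h9
          simp only [List.length_cons, List.length_append, List.length_nil] at h9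
          omega
    -- induction
    have hfin2 : Finite (H.map (MulAut.conj k⁻¹).toMonoidHom) :=
      Finite.of_surjective _ (MonoidHom.subgroupMap_surjective (MulAut.conj k⁻¹).toMonoidHom H)
    obtain ⟨g, hg, hgh⟩ := ih (H.map (MulAut.conj k⁻¹).toMonoidHom) (by
        rintro _ ⟨h, hh, rfl⟩
        show k⁻¹ * h * k⁻¹⁻¹ ∈ D.G
        exact D.G.mul_mem (D.G.mul_mem (D.G.inv_mem hk) (hH hh)) (D.G.inv_mem (D.G.inv_mem hk)))
      hfin2 (by
        rintro _ ⟨h, hh, rfl⟩
        show (word (k⁻¹ * h * k⁻¹⁻¹).left).length ≤ n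
        rw [inv_inv]
        exact key h hh)
    refine ⟨g * k⁻¹, D.G.mul_mem hg (D.G.inv_mem hk), fun h hh => ?_⟩
    obtain ⟨s, hs, he⟩ := hgh (k⁻¹ * h * k⁻¹⁻¹) ⟨h, hh, rfl⟩
    refine ⟨s, hs, ?_⟩
    rw [← he]
    group

/-- **Finite subgroups.** -/
theorem exists_conj (H : Subgroup (E D.X W)) (hH : H ≤ D.G) (hfin : Finite H) :
    ∃ g ∈ D.G, ∀ h ∈ H, ∃ s ∈ D.S, g * h * g⁻¹ = inr s := by
  obtain ⟨n, hn⟩ : ∃ n, ∀ h : H, (word (h : E D.X W).left).length ≤ n := by
    obtain ⟨n, hn⟩ := (Set.finite_range fun h : H => (word (h : E D.X W).left).length).bddAbove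
    exact ⟨n, fun h => hn ⟨h, rfl⟩⟩
  exact exists_conj_of_finite n H hH hfin fun h hh => hn ⟨h, hh⟩

end Data

end Cfsg.Agent.H791.Hnn
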