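import Cfsg.Agent.H952.On.Table
import Cfsg.Agent.H681.GmnRankOne
import Cfsg.Agent.H961.LinePSU3

/-!
# The even order rows of S3855 in defining characteristic: rank one (helper791)

* `ev_of_central_real` : the central elements of order `p` of one Sylow `p`-subgroup are real;
* `ev_Ree`, `ev_psl_two_sq`, `ev_psu_three`.
-/

set_option autoImplicit false
set_option linter.unusedSectionVars false

namespace Cfsg.Agent.H791.OnOne

open Cfsg Subgroup Cfsg.Agent.H467.OddNorm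
open scoped Pointwise

universe u

section Central

variable {p : ℕ} {S : Type u} [Group S] [Finite S] [hp : Fact p.Prime]

/-- the central elements of order `p` of one Sylow `p`-subgroup are real -/
theorem ev_of_central_real (hp2 : p ≠ 2) (hZ : center S = ⊥) (hd : p ∣ Nat.card S) (P : Sylow p S)
    (h : ∀ z ∈ P, z ≠ 1 → z ^ p = 1 → (∀ x ∈ P, x * z = z * x) → IsConj z z⁻¹) : Ev p S := by
  refine Ev.of_real hp2 hZ hd fun z hz hc => ?_
  have hz1 : z ≠ 1 := by
    rintro rfl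
    rw [orderOf_one] at hz
    exact hp.out.one_lt.ne hz
  have hzp : z ^ p = 1 := by rw [← hz, pow_orderOf_eq_one]
  -- a Sylow subgroup of `S` centralising `z`
  obtain ⟨Q, hQ⟩ : ∃ Q : Sylow p S, ∀ x ∈ Q, x * z = z * x := by
    obtain ⟨R⟩ : Nonempty (Sylow p ↥(centralizer ({z} : Set S))) := inferInstance
    have h1 : IsPGroup p ↥((R : Subgroup ↥(centralizer ({z} : Set S))).map (centralizer ({z} : Set S)).subtype) :=
      R.isPGroup'.map _
    have h2 : ¬ p ∣ ((R : Subgroup ↥(centralizer ({z} : Set S))).map (centralizer ({z} : Set S)).subtype).index := by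
      rw [index_map_subtype, hp.out.dvd_mul]
      rintro (h3 | h3)
      · exact R.not_dvd_index h3
      · exact hc h3
    refine ⟨h1.toSylow h2, ?_⟩
    rintro x ⟨y, -, rfl⟩
    exact mem_centralizer_singleton_iff.1 y.2
  have hzQ : z ∈ Q := by
    have h1 : IsPGroup p ↥(zpowers z) := by
      rintro ⟨y, hy⟩
      obtain ⟨m, rfl⟩ := mem_zpowers_iff.1 hy
      refine ⟨1, Subtype.ext ?_⟩
      change (z ^ m) ^ p ^ 1 = 1
      rw [pow_one, ← zpow_natCast, zpow_comm, zpow_natCast, hzp, one_zpow]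
    have h2 : zpowers z ⊓ normalizer ((Q : Subgroup S) : Set S) = zpowers z ⊓ Q := h1.inf_normalizer_sylow Q
    have h3 : z ∈ zpowers z ⊓ normalizer ((Q : Subgroup S) : Set S) := by
      refine mem_inf.2 ⟨mem_zpowers z, ?_⟩
      rw [mem_normalizer_iff]
      intro x
      constructor
      · intro hx
        rw [← hQ x hx, mul_inv_cancel_right]; exact hx
      · intro hx
        have h4 := hQ _ hx
        have h5 : x = z⁻¹ * (z * x * z⁻¹ * z) := by group
        have h6 : z * x * z⁻¹ = x := by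
          have h7 : z * x * z⁻¹ * z = z * (z * x * z⁻¹) := h4
          have h8 : z * x = z * (z * x * z⁻¹) := by
            calc z * x = z * x * z⁻¹ * z := by group
              _ = _ := h7
          exact (mul_left_cancel h8).symm
        rw [← h6]; exact hx
    rw [h2] at h3
    exact h3.2
  obtain ⟨g, hg⟩ := MulAction.exists_smul_eq S Q P
  have hmem : ∀ x, x ∈ P → g⁻¹ * x * g ∈ Q := by
    intro x hx
    rw [← hg] at hx
    have hx' : x ∈ MulAut.conj g • (Q : Subgroup S) := hx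
    rw [Subgroup.mem_pointwise_smul_iff_inv_smul_mem] at hx'
    rw [← map_inv, MulAut.smul_def, MulAut.conj_apply, inv_inv] at hx'
    exact hx'
  have hmem' : ∀ x, x ∈ Q → g * x * g⁻¹ ∈ P := by
    intro x hx
    rw [← hg]
    exact Subgroup.smul_mem_pointwise_smul x (MulAut.conj g) _ hx
  have hc := h (g * z * g⁻¹) (hmem' z hzQ) (fun h0 => hz1 (conj_eq_one_iff.1 h0))
    (by rw [conj_pow, hzp, mul_one, mul_inv_cancel]) (fun x hx => by
      have h1 := hQ _ (hmem x hx)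
      calc x * (g * z * g⁻¹) = g * ((g⁻¹ * x * g) * z) * g⁻¹ := by group
        _ = g * (z * (g⁻¹ * x * g)) * g⁻¹ := by rw [h1]
        _ = g * z * g⁻¹ * x := by group)
  have hc' : IsConj z z⁻¹ := by
    have h1 : IsConj z (g * z * g⁻¹) := isConj_iff.2 ⟨g, rfl⟩
    have h2 : IsConj z⁻¹ (g * z * g⁻¹)⁻¹ := isConj_iff.2 ⟨g, by group⟩
    exact h1.trans (hc.trans h2.symm)
  exact isConj_iff.1 hc'

end Central

/-! ### the Ree groups -/

section Ree

open Cfsg.Agent.LieRecognition.ReeAbs Cfsg.Agent.LieRecognition.ReeSylowThree Cfsg.Agent.FixBN.ReeSplit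

variable {K : Type*} [Field K] [Fintype K] {m : ℕ} {G : Type u} [Group G] {U : K → K → K → G} {h : Kˣ → G} {n : G}

theorem ev_Ree (hK : Fintype.card K = 3 ^ (2 * m + 1)) (D : Data m U h n) (hZ : center G = ⊥) : Ev 3 G := by
  have : Finite G := finite D
  have : Fact (Nat.Prime 3) := ⟨Nat.prime_three⟩
  have hpg : IsPGroup 3 (uSub D) := by
    apply IsPGroup.of_card (n := (2 * m + 1) * 3)
    rw [card_uSub, hK, pow_mul]
  have hcard := card_eq D
  have hidx : (uSub D).index = (Fintype.card K - 1) * ((Fintype.card K) ^ 3 + 1) := by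
    have h1 := (uSub D).card_mul_index
    rw [card_uSub, hcard, mul_assoc] at h1
    exact Nat.eq_of_mul_eq_mul_left (pow_pos (Fintype.card_pos) 3) h1
  have hq : 3 ∣ Fintype.card K := by rw [hK]; exact dvd_pow_self 3 (by omega)
  have hn3 : ¬ 3 ∣ (uSub D).index := by
    rw [hidx, Nat.prime_three.dvd_mul]
    have h0 := Fintype.card_pos (α := K)
    obtain ⟨c, hc⟩ := hq
    rintro (h1 | h1)
    · obtain ⟨d, hd⟩ := h1
      omega
    · have h2 : 3 ∣ Fintype.card K ^ 3 := dvd_pow ⟨c, hc⟩ (by decide)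
      rw [Nat.dvd_add_right h2] at h1
      omega
  have hmem : ∀ x, x ∈ hpg.toSylow hn3 ↔ x ∈ uSub D := fun x => Iff.rfl
  refine ev_of_central_real (by decide) hZ ?_ (hpg.toSylow hn3) ?_
  · rw [hcard]
    exact ((dvd_pow hq (by decide)).mul_right _).mul_right _
  rintro z hz hz1 - hcz
  obtain ⟨t, u, v, rfl⟩ := (mem_uSub D).1 ((hmem z).1 hz)
  have e1 := hcz (U 0 1 0) ((hmem _).2 ⟨_, _, _, rfl⟩)
  rw [D.U_mul, D.U_mul] at e1
  obtain ⟨-, -, e1⟩ := U_injective D e1
  have ht : t = 0 := by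
    have h0 : (0 : K) ^ 3 ^ (m + 1) = 0 := zero_pow (by positivity)
    rw [h0] at e1
    linear_combination -e1
  have e2 := hcz (U 1 0 0) ((hmem _).2 ⟨_, _, _, rfl⟩)
  rw [D.U_mul, D.U_mul] at e2
  obtain ⟨-, -, e2⟩ := U_injective D e2
  have hu : u = 0 := by
    rw [ht] at e2
    have h0 : (0 : K) ^ 3 ^ (m + 1) = 0 := zero_pow (by positivity)
    rw [h0, one_pow] at e2
    linear_combination e2
  subst ht
  subst hu
  refine isConj_iff.2 ⟨h (-1), ?_⟩
  have e3 := D.inv_mul_U 0 0 v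
  rw [e3, mul_inv_cancel_right, eq_inv_iff_mul_eq_one, D.U_mul, ← D.U_zero]
  congr 1 <;> simp

theorem ev_isoRee {G : Type u} [Group G] (hG : Cfsg.Lie.IsoRee G) (hZ : center G = ⊥) : Ev 3 G := by
  obtain ⟨K, _, _, m, hm, hK, ⟨e⟩⟩ := hG
  obtain ⟨U, h, n, D⟩ := Cfsg.Agent.ChevalleyStructure.Ree.Data.exists_data hK
  have hfin : Finite ↥(Cfsg.Lie.twistedG2 K (3 ^ m)) := finite D
  have : Fact (Nat.Prime 3) := ⟨Nat.prime_three⟩
  have hZ' : center ↥(Cfsg.Lie.twistedG2 K (3 ^ m)) = ⊥ := by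
    rw [Subgroup.eq_bot_iff_forall] at hZ ⊢
    intro x hx
    have h1 : e.symm x ∈ center G := by
      rw [mem_center_iff] at hx ⊢
      intro g
      apply e.injective
      rw [map_mul, map_mul, e.apply_symm_apply]
      exact hx _
    have h2 := hZ _ h1
    rw [← e.apply_symm_apply x, h2, map_one]
  exact Ev.congr e.symm (ev_Ree hK D hZ')

end Ree

/-! ### `PSL₂(q)` -/

section PSL

open Matrix Cfsg.Agent.ClassicalGeometry.AutPSL.Root Cfsg.Agent.ClassicalGeometry.AutPSL.SylowU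
  Cfsg.Agent.ChevalleyStructure.SL2Hom Cfsg.Agent.H681.GmnRankOne

variable {F : Type*} [Field F] [Fintype F]

theorem ev_psl_two_sq {p : ℕ} [hp : Fact p.Prime] [CharP F p] (hp2 : p ≠ 2) (hsq : IsSquare (-1 : F))
    (hZ : center (Matrix.ProjectiveSpecialLinearGroup (Fin 2) F) = ⊥) :
    Ev p (Matrix.ProjectiveSpecialLinearGroup (Fin 2) F) := by
  obtain ⟨b, hb⟩ := hsq
  have hb0 : b ≠ 0 := by
    rintro rfl
    rw [mul_zero, neg_eq_zero] at hb
    exact one_ne_zero hb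
  obtain ⟨a, ha⟩ : ∃ a : Fˣ, (-1 : F) = (a : F) ^ 2 := ⟨Units.mk0 b hb0, by rw [Units.val_mk0, sq, ← hb]⟩
  have : Finite (Matrix.ProjectiveSpecialLinearGroup (Fin 2) F) := Quotient.finite _
  obtain ⟨P, hP⟩ := Cfsg.Agent.ClassicalGeometry.AutPSL.SylowU.exists_sylow (F := F) 2 p
  refine ev_of_central_real hp2 hZ ?_ P fun z hz hz1 _ _ => ?_
  · have h1 : Nat.card ((upper 2 F).map pr) = Fintype.card F ^ (2 * (2 - 1) / 2) := card_map_upper 2
    have h2 : Nat.card ((upper 2 F).map pr) ∣ Nat.card (Matrix.ProjectiveSpecialLinearGroup (Fin 2) F) :=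
      Subgroup.card_subgroup_dvd_card _
    rw [h1] at h2
    obtain ⟨f, hpf, hf⟩ := FiniteField.card F p
    refine dvd_trans ?_ h2
    rw [hf]
    exact dvd_pow (dvd_pow_self p f.ne_zero) (by decide)
  · have hz' : z ∈ (P : Subgroup _) := hz
    rw [hP] at hz'
    obtain ⟨g, hg, rfl⟩ := hz'
    obtain ⟨t, rfl⟩ := eq_up hg
    refine isConj_iff.2 ⟨pr (dg a), ?_⟩
    rw [← map_mul, ← map_inv, ← map_mul, dg_conj, ← map_inv, ← ha, neg_one_mul]
    congr 1
    rw [eq_inv_iff_mul_eq_one, ← up_add, neg_add_cancel, up_zero]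

end PSL

/-! ### `PSU₃(q)` -/

section U3

open Matrix Cfsg.Agent.H961.LinePSU3 Cfsg.Agent.LieRecognition.PSUThreeSylow

variable {F : Type u} [Field F] {σ : F →+* F}

/-- the elements of `SUJ σ` fixing `e₁` -/
theorem exists_umt {g : SpecialLinearGroup (Fin 3) F} (hg : g ∈ SUJ σ) (h : g.1 *ᵥ e1 F = e1 F) :
    ∃ b c : F, b + σ b + c * σ c = 0 ∧ g.1 = umt (-σ c) b c := by
  have h0 : g.1 0 0 = 1 := by
    have := congrFun h 0
    simpa [e1, Matrix.mulVec, dotProduct, Fin.sum_univ_three] using this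
  have h1 : g.1 1 0 = 0 := by
    have := congrFun h 1
    simpa [e1, Matrix.mulVec, dotProduct, Fin.sum_univ_three] using this
  have h2 : g.1 2 0 = 0 := by
    have := congrFun h 2
    simpa [e1, Matrix.mulVec, dotProduct, Fin.sum_univ_three] using this
  have h22 : g.1 2 2 = 1 := by
    have hE := entry_of_mem_SUJ hg 0 2
    rw [h0, h1, h2] at hE
    have hJ : Jm F 0 2 = 1 := by simp [Jm]
    rw [hJ] at hE
    apply σ.injective
    rw [map_one]
    linear_combination hE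
  have h21 : g.1 2 1 = 0 := by
    have hE := entry_of_mem_SUJ hg 0 1
    rw [h0, h1, h2] at hE
    have hJ : Jm F 0 1 = 0 := by simp [Jm]
    rw [hJ] at hE
    apply σ.injective
    rw [map_zero]
    linear_combination hE
  have h11 : g.1 1 1 = 1 := by
    have hdet := g.2
    rw [Matrix.det_fin_three, h0, h1, h2, h22, h21] at hdet
    linear_combination hdet
  have h01 : g.1 0 1 = -σ (g.1 1 2) := by
    have hE := entry_of_mem_SUJ hg 1 2
    rw [h22, h11, h21, map_one] at hE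
    have hJ : Jm F 1 2 = 0 := by simp [Jm]
    rw [hJ] at hE
    linear_combination hE
  refine ⟨g.1 0 2, g.1 1 2, ?_, ?_⟩
  · have hE := entry_of_mem_SUJ hg 2 2
    rw [h22, map_one] at hE
    have hJ : Jm F 2 2 = 0 := by simp [Jm]
    rw [hJ] at hE
    linear_combination hE
  · ext i j
    fin_cases i <;> fin_cases j <;> simp [umt, h0, h1, h2, h22, h21, h11, h01]

/-- the Sylow subgroup -/
def PU (σ : F →+* F) : Subgroup ↥(SUJ σ) where
  carrier := {g | g.1.1 *ᵥ e1 F = e1 F}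
  one_mem' := by
    change (1 : Matrix (Fin 3) (Fin 3) F) *ᵥ e1 F = e1 F
    rw [Matrix.one_mulVec]
  mul_mem' := by
    intro g k hg hk
    change (g.1.1 * k.1.1) *ᵥ e1 F = e1 F
    have hg' : g.1.1 *ᵥ e1 F = e1 F := hg
    have hk' : k.1.1 *ᵥ e1 F = e1 F := hk
    rw [← Matrix.mulVec_mulVec, hk', hg']
  inv_mem' := by
    intro g hg
    have hg' : g.1.1 *ᵥ e1 F = e1 F := hg
    have h1 : (g⁻¹).1.1 * g.1.1 = 1 := congrArg (fun x : ↥(SUJ σ) => x.1.1) (inv_mul_cancel g)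
    change (g⁻¹).1.1 *ᵥ e1 F = e1 F
    nth_rewrite 1 [← hg']
    rw [Matrix.mulVec_mulVec, h1, Matrix.one_mulVec]

theorem mem_PU {g : ↥(SUJ σ)} : g ∈ PU σ ↔ g.1.1 *ᵥ e1 F = e1 F := Iff.rfl

/-- the elements of the Sylow subgroup -/
def ut (hσ : ∀ x, σ (σ x) = x) (b c : F) (h : b + σ b + c * σ c = 0) : ↥(SUJ σ) :=
  ⟨⟨umt (-σ c) b c, det_umt _ _ _⟩, umt_form hσ h⟩

theorem ut_mem (hσ : ∀ x, σ (σ x) = x) (b c : F) (h : b + σ b + c * σ c = 0) : ut hσ b c h ∈ PU σ := by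
  rw [mem_PU]
  change umt (-σ c) b c *ᵥ e1 F = e1 F
  ext i
  fin_cases i <;> simp [umt, e1, Matrix.mulVec, dotProduct, Fin.sum_univ_three]

theorem half_eq (h2 : (2 : F) ≠ 0) (c : F) (hσ : ∀ x, σ (σ x) = x) :
    -(c * σ c) / 2 + σ (-(c * σ c) / 2) + c * σ c = 0 := by
  have h2' : σ 2 = 2 := by
    rw [show (2 : F) = 1 + 1 by norm_num, map_add, map_one]
  rw [map_div₀, map_neg, map_mul, hσ, h2']
  field_simp
  ring

theorem isPGroup_PU {p : ℕ} [Fact p.Prime] [CharP F p] : IsPGroup p ↥(PU σ) := by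
  rintro ⟨g, hg⟩
  refine ⟨2, Subtype.ext (Subtype.ext ?_)⟩
  have := unip (r := p) g.1 g.2 (mem_PU.1 hg)
  simpa using this

theorem sylow_PU [Finite F] {p : ℕ} [hp : Fact p.Prime] [CharP F p] (h2 : (2 : F) ≠ 0) (hσ : ∀ x, σ (σ x) = x) :
    ∃ P : Sylow p ↥(SUJ σ), (P : Subgroup ↥(SUJ σ)) = PU σ := by
  obtain ⟨Q, hQ⟩ := (isPGroup_PU (σ := σ) (p := p)).exists_le_sylow
  refine ⟨Q, le_antisymm ?_ hQ⟩
  -- a fixed vector of `Q`
  obtain ⟨v, hv, hv0⟩ : ∃ v : Fin 3 → F, (∀ g ∈ Q, g.1.1 *ᵥ v = v) ∧ v ≠ 0 := by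
    let _ : MulAction ↥(Q : Subgroup ↥(SUJ σ)) (Fin 3 → F) :=
      { smul := fun g v => g.1.1.1 *ᵥ v
        one_smul := fun v => Matrix.one_mulVec v
        mul_smul := fun g k v => (Matrix.mulVec_mulVec v g.1.1.1 k.1.1.1).symm }
    have hcard : p ∣ Nat.card (Fin 3 → F) := by
      have := Fintype.ofFinite F
      obtain ⟨f, -, hf⟩ := FiniteField.card F p
      rw [Nat.card_fun, Nat.card_eq_fintype_card, Nat.card_eq_fintype_card, hf, Fintype.card_fin, ← pow_mul]
      exact dvd_pow_self p (by have := f.pos; omega)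
    have h0 : (0 : Fin 3 → F) ∈ MulAction.fixedPoints ↥(Q : Subgroup ↥(SUJ σ)) (Fin 3 → F) := by
      intro g
      change g.1.1.1 *ᵥ 0 = 0
      rw [Matrix.mulVec_zero]
    obtain ⟨v, hv, hv0⟩ := Q.isPGroup'.exists_fixed_point_of_prime_dvd_card_of_fixed_point (Fin 3 → F) hcard h0
    exact ⟨v, fun g hg => hv ⟨g, hg⟩, fun h => hv0 h.symm⟩
  -- it is a multiple of `e₁`
  have hu : (-1 / 2 : F) + σ (-1 / 2) + 1 * σ 1 = 0 := by
    have := half_eq (σ := σ) h2 1 hσ
    rw [map_one, one_mul] at this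
    rw [map_one, one_mul]
    exact this
  have h1 := hv _ (hQ (ut_mem hσ (-1 / 2) 1 hu))
  change umt (-σ 1) (-1 / 2) 1 *ᵥ v = v at h1
  have e1' := congrFun h1 1
  have e0' := congrFun h1 0
  simp only [umt, Matrix.mulVec, dotProduct, Fin.sum_univ_three] at e1' e0'
  simp at e1' e0'
  have hv2 : v 2 = 0 := by linear_combination e1'
  have hv1 : v 1 = 0 := by
    rw [hv2] at e0'
    linear_combination -e0'
  have hv0' : v 0 ≠ 0 := by
    intro h
    apply hv0
    ext i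
    fin_cases i
    · exact h
    · exact hv1
    · exact hv2
  have hve : v = v 0 • e1 F := by
    ext i
    fin_cases i
    · simp [e1]
    · simp [e1, hv1]
    · simp [e1, hv2]
  intro g hg
  rw [mem_PU]
  have h3 := hv g hg
  rw [hve, Matrix.mulVec_smul] at h3
  exact smul_right_injective _ hv0' h3

/-- the Weyl element -/
def wJ (σ : F →+* F) : ↥(SUJ σ) :=
  ⟨⟨-Jm F, by rw [Matrix.det_fin_three]; simp [Jm]⟩, by
    change (-Jm F)ᵀ * Jm F * (-Jm F).map σ = Jm F
    have h1 : (-Jm F).map σ = -Jm F := by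
      ext i j
      fin_cases i <;> fin_cases j <;> simp [Jm]
    rw [h1, Matrix.transpose_neg, Jm_transpose, Matrix.neg_mul, Jm_mul_Jm, neg_mul_neg, one_mul]⟩

/-- the Sylow subgroup meets the centre trivially -/
theorem eq_one_of_center {g : ↥(SUJ σ)} (hg : g ∈ PU σ) (hc : g * wJ σ = wJ σ * g) : g = 1 := by
  obtain ⟨b, c, -, e⟩ := exists_umt g.2 (mem_PU.1 hg)
  have h1 : g.1.1 * -Jm F = -Jm F * g.1.1 := congrArg (fun x : ↥(SUJ σ) => x.1.1) hc
  rw [e] at h1
  have e0 := congrFun (congrFun h1 0) 0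
  have e1' := congrFun (congrFun h1 1) 0
  simp [umt, Jm, Matrix.mul_apply, Fin.sum_univ_three] at e0 e1'
  apply Subtype.ext
  apply Subtype.ext
  change g.1.1 = 1
  rw [e, e0, e1', map_zero, neg_zero]
  ext i j
  fin_cases i <;> fin_cases j <;> simp [umt]

/-- **`PSU₃(q)`, `q` odd** -/
theorem ev_psu_three {F : Type u} [Field F] [Fintype F] {q : ℕ} (hF : Fintype.card F = q ^ 2) {p : ℕ}
    [hp : Fact p.Prime] [CharP F p] (hp2 : p ≠ 2) (hZ : center (PSU 3 F q) = ⊥) : Ev p (PSU 3 F q) := by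
  have hfin : Finite (PSU 3 F q) := Quotient.finite _
  obtain ⟨f, hpf, hf⟩ := FiniteField.card F p
  -- `q` is a power of `p`
  obtain ⟨e, -, he⟩ : ∃ e, e ≤ (f : ℕ) ∧ q = p ^ e := by
    have h1 : q ∣ p ^ (f : ℕ) := by rw [← hf, hF]; exact dvd_pow_self q (by decide)
    exact (Nat.dvd_prime_pow hp.out).1 h1
  have he0 : e ≠ 0 := by
    rintro rfl
    rw [he, pow_zero, one_pow] at hF
    have := Fintype.one_lt_card (α := F)
    omega
  have hq2 : 2 ≤ q := by
    rw [he]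
    calc 2 ≤ p := hp.out.two_le
      _ = p ^ 1 := (pow_one p).symm
      _ ≤ p ^ e := Nat.pow_le_pow_right hp.out.pos (by omega)
  have hodd : Odd q := by rw [he]; exact (hp.out.odd_of_ne_two hp2).pow
  have h2 : (2 : F) ≠ 0 := by
    intro h
    have h1 : ((2 : ℕ) : F) = 0 := by exact_mod_cast h
    rw [CharP.cast_eq_zero_iff F p] at h1
    exact hp2 ((Nat.prime_dvd_prime_iff_eq hp.out Nat.prime_two).1 h1)
  obtain ⟨σ, hs, hσ, T, T', h, hT⟩ := exists_T_all (r := p) hF he hq2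
  -- the map
  have hmem : ∀ x : ↥(SUJ σ), conjT h x.1 ∈ SU 3 F q := fun x => by
    rw [← SU_eq_map hs h hT]
    exact ⟨x.1, x.2, rfl⟩
  obtain ⟨φ, hφ⟩ : ∃ φ : ↥(SUJ σ) →* ↥(SU 3 F q), ∀ x, (φ x : SpecialLinearGroup (Fin 3) F) = conjT h x.1 :=
    ⟨{ toFun := fun x => ⟨conjT h x.1, hmem x⟩
       map_one' := Subtype.ext (map_one (conjT h))
       map_mul' := fun x y => Subtype.ext (map_mul (conjT h) x.1 y.1) }, fun _ => rfl⟩
  have hφs : Function.Surjective φ := by
    intro y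
    obtain ⟨k, hk, e⟩ := (SU_eq_map hs h hT).ge y.2
    exact ⟨⟨k, hk⟩, Subtype.ext (by rw [hφ]; exact e)⟩
  have hφi : Function.Injective φ := by
    intro x y hxy
    have h1 := congrArg Subtype.val hxy
    rw [hφ, hφ] at h1
    exact Subtype.ext ((conjT h).injective h1)
  obtain ⟨π, hπ⟩ : ∃ π : ↥(SUJ σ) →* PSU 3 F q, π = (QuotientGroup.mk' (center ↥(SU 3 F q))).comp φ := ⟨_, rfl⟩
  have hπs : Function.Surjective π := by
    rw [hπ]
    exact (QuotientGroup.mk'_surjective _).comp hφs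
  have hker : ∀ x, π x = 1 → ∀ y, x * y = y * x := by
    intro x hx y
    rw [hπ] at hx
    have h1 : φ x ∈ center ↥(SU 3 F q) := (QuotientGroup.eq_one_iff _).1 hx
    apply hφi
    rw [map_mul, map_mul]
    exact (mem_center_iff.1 h1 (φ y)).symm
  have hker1 : ∀ x ∈ PU σ, π x = 1 → x = 1 := fun x hx h1 => eq_one_of_center hx (hker x h1 _)
  obtain ⟨P, hP⟩ := sylow_PU (p := p) h2 hσ
  have hPmem : ∀ z, z ∈ P.mapSurjective hπs ↔ ∃ g ∈ PU σ, π g = z := by
    intro z
    rw [← hP]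
    rfl
  refine ev_of_central_real hp2 hZ ?_ (P.mapSurjective hπs) ?_
  · -- `p` divides the order
    have hu := half_eq (σ := σ) h2 1 hσ
    have hu1 : π (ut hσ _ 1 hu) ≠ 1 := by
      intro h1
      have h3 := hker1 _ (ut_mem hσ _ 1 hu) h1
      have h4 := congrFun (congrFun (congrArg (fun x : ↥(SUJ σ) => x.1.1) h3) 1) 2
      change umt (-σ 1) _ 1 1 2 = (1 : Matrix (Fin 3) (Fin 3) F) 1 2 at h4
      simp [umt] at h4
    have h3 : IsPGroup p ↥((P.mapSurjective hπs : Sylow p (PSU 3 F q)) : Subgroup (PSU 3 F q)) :=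
      (P.mapSurjective hπs).isPGroup'
    obtain ⟨k, hk⟩ := h3 ⟨π (ut hσ _ 1 hu), (hPmem _).2 ⟨_, ut_mem hσ _ 1 hu, rfl⟩⟩
    have hk' : π (ut hσ _ 1 hu) ^ p ^ k = 1 := congrArg Subtype.val hk
    have h4 : orderOf (π (ut hσ _ 1 hu)) ∣ p ^ k := orderOf_dvd_of_pow_eq_one hk'
    obtain ⟨j, -, hj⟩ := (Nat.dvd_prime_pow hp.out).1 h4
    have h5 : p ∣ orderOf (π (ut hσ _ 1 hu)) := by
      rcases Nat.eq_zero_or_pos j with rfl | hj0
      · rw [pow_zero, orderOf_eq_one_iff] at hj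
        exact absurd hj hu1
      · rw [hj]; exact dvd_pow_self p hj0.ne'
    exact h5.trans (orderOf_dvd_natCard _)
  rintro z hz hz1 - hcz
  obtain ⟨g, hg, rfl⟩ := (hPmem z).1 hz
  -- `g` is central in the Sylow subgroup
  have hcg : ∀ x ∈ PU σ, x * g = g * x := by
    intro x hx
    have h1 := hcz (π x) ((hPmem _).2 ⟨x, hx, rfl⟩)
    have h3 : x * g * (x⁻¹ * g⁻¹) = 1 := by
      refine hker1 _ (mul_mem (mul_mem hx hg) (mul_mem (inv_mem hx) (inv_mem hg))) ?_
      rw [map_mul, map_mul, map_mul, map_inv, map_inv, h1]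
      group
    calc x * g = x * g * (x⁻¹ * g⁻¹) * (g * x) := by group
      _ = g * x := by rw [h3, one_mul]
  obtain ⟨b, c, hbc, hgm⟩ := exists_umt g.2 (mem_PU.1 hg)
  have key : ∀ l : F, σ l * c = σ c * l := by
    intro l
    have h1 := hcg _ (ut_mem hσ _ l (half_eq (σ := σ) h2 l hσ))
    have h3 : umt (-σ l) (-(l * σ l) / 2) l * g.1.1 = g.1.1 * umt (-σ l) (-(l * σ l) / 2) l :=
      congrArg (fun x : ↥(SUJ σ) => x.1.1) h1
    rw [hgm] at h3
    have h4 := congrFun (congrFun h3 0) 2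
    simp [umt, Matrix.mul_apply, Fin.sum_univ_three] at h4
    linear_combination -h4
  obtain ⟨l, hl⟩ : ∃ l : F, σ l ≠ l := by
    by_contra hcon
    push Not at hcon
    obtain ⟨γ, hγ⟩ := IsCyclic.exists_generator (α := Fˣ)
    have hord : orderOf γ = q ^ 2 - 1 := by
      rw [orderOf_eq_card_of_forall_mem_zpowers hγ, Nat.card_units, Nat.card_eq_fintype_card, hF]
    have h0 : (γ : F) ^ q = γ := by rw [← hs]; exact hcon _
    have h1 : γ ^ q = γ := Units.ext (by rw [Units.val_pow_eq_pow_val]; exact h0)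
    have h3 : γ ^ (q - 1) = 1 := by
      have h4 : γ ^ (q - 1) * γ = 1 * γ := by
        rw [← pow_succ, one_mul]
        convert h1 using 2
        omega
      exact mul_right_cancel h4
    have h5 := orderOf_dvd_of_pow_eq_one h3
    rw [hord] at h5
    have h6 := Nat.le_of_dvd (by omega) h5
    have : q * 2 ≤ q ^ 2 := by nlinarith
    omega
  have hc0 : c = 0 := by
    have h1 := key 1
    rw [map_one, one_mul, mul_one] at h1
    have h3 := key l
    rw [← h1] at h3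
    have h4 : (σ l - l) * c = 0 := by linear_combination h3
    rcases mul_eq_zero.1 h4 with h5 | h5
    · exact absurd (sub_eq_zero.1 h5) hl
    · exact h5
  subst hc0
  rw [map_zero, neg_zero] at hgm
  -- the torus element
  obtain ⟨a, ha⟩ : ∃ a : F, a * σ a = -1 := by
    have hn := S0754.result hF (-1) (neg_ne_zero.2 one_ne_zero) hodd.neg_one_pow
    have : 0 < Nat.card {x : F // x ^ (q + 1) = -1} := by omega
    obtain ⟨⟨i, hi⟩⟩ := (Nat.card_pos_iff.1 this).1
    exact ⟨i, by rw [hs, ← pow_succ', hi]⟩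
  have ha0 : a ≠ 0 := by
    rintro rfl
    rw [zero_mul] at ha
    exact one_ne_zero (neg_eq_zero.1 ha.symm)
  obtain ⟨D, hD, m, hDm⟩ := exists_d hσ (Units.mk0 a ha0)
  rw [Units.val_mk0] at hDm
  have hd : (σ a)⁻¹ = -a := by
    have h0 : σ a ≠ 0 := (map_ne_zero σ).2 ha0
    field_simp
    linear_combination ha
  rw [hd] at hDm
  have hgD : g * ⟨D, hD⟩ * g = ⟨D, hD⟩ := by
    apply Subtype.ext
    apply Subtype.ext
    change g.1.1 * D.1 * g.1.1 = D.1
    rw [hgm, hDm]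
    ext i j
    fin_cases i <;> fin_cases j <;> simp [umt, dmat, Matrix.mul_apply, Fin.sum_univ_three]
    ring
  refine isConj_iff.2 ⟨π ⟨D, hD⟩, ?_⟩
  rw [← map_inv, ← map_inv, ← map_mul, ← map_mul]
  congr 1
  rw [mul_inv_eq_iff_eq_mul, eq_inv_mul_iff_mul_eq, ← mul_assoc]
  exact hgD

end U3

end Cfsg.Agent.H791.OnOne
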