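import Cfsg.Agent.H952.On.Table
import Cfsg.Agent.H681.GmnRankTwo

/-!
# The even order rows of S3855 in defining characteristic: rank at least two (helper791)

Even order versions of helper681's rows `GmnRgd`, `GmnBond`, `GmnTypes`, `GmnSign`, `GmnRankTwo`.

* `evA_of_fixed` : if every `p`-group of frame automorphisms centralises an element of even order of `T`, then `EvA p Y`;
* `evA_of_bond`, `evA_of_rigid`, `evA_of_sign`, `evA_of_cls`, `evA_of_inv`;
* `evA_PSp_two`, `evA_PSU_two`, `evA_G2`, `evA_twD4`.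
-/

set_option autoImplicit false
set_option linter.unusedSectionVars false

namespace Cfsg.Agent.H791.OnRgd

open CoxeterSystem Cfsg.Agent.ChevalleyStructure.CoxeterGeom Cfsg.Agent.Tits.Roots Cfsg.Agent.Tits.Core
  Cfsg.Agent.Tits.RootComb Cfsg.Agent.Tits.Exchange Cfsg.Agent.Nodes.Reps Cfsg.Agent.Nodes.BNOf
  Cfsg.Agent.Nodes.Comb
  Cfsg.Agent.Nodes.StabComb Cfsg.Agent.Nodes.ZFam
  Cfsg.Agent.Nodes.Bruhat Cfsg.Agent.Nodes.OppDec Cfsg.Agent.Nodes.LeviDec Cfsg.Agent.Nodes.NormalForm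
  Cfsg.Agent.KFacts.RgdOpp Cfsg.Agent.KFacts.RgdAut Cfsg.Agent.KFacts.RgdDiag Cfsg.Agent.KFacts.RgdRigid
  Cfsg.Agent.H142.GmnPC Cfsg.Agent.H681.GmnRgd Cfsg.Agent.H681.GmnBond Cfsg.Agent.H681.GmnSign
  Cfsg.Agent.H952.On
open scoped commutatorElement Pointwise

/-- It is enough to consider one Sylow `p`-subgroup. -/
theorem evA_of_sylow {p : ℕ} {S : Type*} [Group S] [Finite S] [Fact p.Prime] (P : Sylow p S)
    (H : ∀ A : Subgroup (MulAut S), IsPGroup p A → (P : Subgroup S).map MulAut.conj ≤ A →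
      ∃ h : S, Even (orderOf h) ∧ ∀ a ∈ A, MulAut.conj h * a * (MulAut.conj h)⁻¹ ∈ A) : EvA p S := by
  intro A hA Q hQ
  obtain ⟨g, hg⟩ := MulAction.exists_smul_eq S Q P
  set c : MulAut S := MulAut.conj g with hc
  have hA' : IsPGroup p ↥(A.map (MulAut.conj c).toMonoidHom) := hA.map _
  obtain ⟨h, h1, h2⟩ := H (A.map (MulAut.conj c).toMonoidHom) hA' (by
    rintro _ ⟨x, hx, rfl⟩
    rw [← hg] at hx
    obtain ⟨y, hy, rfl⟩ : ∃ y ∈ (Q : Subgroup S), g * y * g⁻¹ = x := by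
      have hx' : x ∈ MulAut.conj g • (Q : Subgroup S) := hx
      rw [Subgroup.mem_pointwise_smul_iff_inv_smul_mem] at hx'
      refine ⟨_, hx', ?_⟩
      rw [← map_inv, MulAut.smul_def, MulAut.conj_apply, inv_inv]
      group
    refine ⟨MulAut.conj y, hQ y hy, ?_⟩
    show c * MulAut.conj y * c⁻¹ = MulAut.conj (g * y * g⁻¹)
    rw [hc, map_mul, map_mul, map_inv])
  have hmem : ∀ a, a ∈ A.map (MulAut.conj c).toMonoidHom ↔ c⁻¹ * a * c ∈ A := by
    intro a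
    constructor
    · rintro ⟨b, hb, rfl⟩
      have e : c⁻¹ * (c * b * c⁻¹) * c = b := by group
      show c⁻¹ * (c * b * c⁻¹) * c ∈ A
      rw [e]; exact hb
    · intro h
      exact ⟨_, h, by show c * (c⁻¹ * a * c) * c⁻¹ = a; group⟩
  refine ⟨g⁻¹ * h * g, ?_, ?_⟩
  · have e : orderOf (g⁻¹ * h * g) = orderOf h := by
      have : g⁻¹ * h * g = MulAut.conj g⁻¹ h := by rw [MulAut.conj_apply, inv_inv]
      rw [this]
      exact orderOf_injective (MulAut.conj g⁻¹).toMonoidHom (MulAut.conj g⁻¹).injective h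
    rw [e]; exact h1
  · intro a ha
    have h4 := h2 (c * a * c⁻¹) ((hmem _).2 (by
      have e1 : c⁻¹ * (c * a * c⁻¹) * c = a := by group
      rw [e1]; exact ha))
    rw [hmem] at h4
    have e2 : c⁻¹ * (MulAut.conj h * (c * a * c⁻¹) * (MulAut.conj h)⁻¹) * c =
        MulAut.conj (g⁻¹ * h * g) * a * (MulAut.conj (g⁻¹ * h * g))⁻¹ := by
      rw [map_mul, map_mul, map_inv, ← hc]; group
    rwa [e2] at h4

variable {I W Y : Type*} [Fintype I] [DecidableEq I] [Group W] [Group Y] {M : CoxeterMatrix I}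
  {cs : CoxeterSystem M W} {A : I → I → ℤ} {h : IsCartan M A} {p : ℕ} {T : Subgroup Y} {n : I → Y}
  {X : (I → ℤ) → Subgroup Y}

section

variable (R : RGD cs h p T n X)

include R

/-- **The reduction to the frame.** -/
theorem evA_of_fixed [Finite W] [Finite Y] [hp : Fact p.Prime] (hG1 : RGD.Sup X {x | IsRoot cs h x} = ⊤)
    (hZ : Subgroup.center Y = ⊥)
    (H : ∀ E : Subgroup (MulAut Y), IsPGroup p E → E ≤ Frame cs h X → ∃ t ∈ T, Even (orderOf t) ∧ ∀ β ∈ E, β t = t) :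
    EvA p Y := by
  have hG := GG_eq_top (T := T) hG1
  obtain ⟨P, hP⟩ := R.isPGroup_Upos.exists_le_sylow
  have hPU : (P : Subgroup Y) = RGD.Sup X (RGD.Pos cs h) :=
    eq_U_of_isPGroup R P.isPGroup' hP (by rw [hG]; exact le_top)
  refine evA_of_sylow P fun A₁ hA hPA => ?_
  rw [hPU] at hPA
  have hUA : ∀ u ∈ RGD.Sup X (RGD.Pos cs h), MulAut.conj u ∈ A₁ := fun u hu => hPA ⟨u, hu, rfl⟩
  -- `A₁ ∩ Inn = conj U`
  have hK : A₁.comap MulAut.conj = RGD.Sup X (RGD.Pos cs h) := by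
    refine eq_U_of_isPGroup R ?_ (fun u hu => hUA u hu) (by rw [hG]; exact le_top)
    rintro ⟨y, hy⟩
    obtain ⟨k, hk⟩ := hA ⟨_, hy⟩
    refine ⟨k, Subtype.ext ?_⟩
    show y ^ p ^ k = 1
    have h1 : MulAut.conj y ^ p ^ k = 1 := congrArg Subtype.val hk
    exact conj_injective_of_center hZ (by rw [map_pow, h1, map_one])
  have hfixU : ∀ α ∈ A₁, Fix α (RGD.Sup X (RGD.Pos cs h)) := by
    have key : ∀ α ∈ A₁, ∀ u ∈ RGD.Sup X (RGD.Pos cs h), α u ∈ RGD.Sup X (RGD.Pos cs h) := by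
      intro α hα u hu
      rw [← hK]
      show MulAut.conj (α u) ∈ A₁
      have e : MulAut.conj (α u) = α * MulAut.conj u * α⁻¹ := by rw [mul_conj_eq, mul_inv_cancel_right]
      rw [e]
      exact mul_mem (mul_mem hα (hUA u hu)) (inv_mem hα)
    intro α hα x
    refine ⟨fun hx => ?_, key α hα x⟩
    have := key α⁻¹ (inv_mem hα) _ hx
    rwa [MulAut.inv_apply_self] at this
  obtain ⟨t, ht, hte, hfix⟩ := H (A₁ ⊓ Frame cs h X) (hA.to_le inf_le_left) inf_le_right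
  refine ⟨t, hte, fun α hα => ?_⟩
  obtain ⟨u, hu, hFU, -, hFN, -⟩ := exists_frame R hG (hfixU α hα)
  have hβ : MulAut.conj u * α ∈ A₁ ⊓ Frame cs h X := ⟨mul_mem (hUA u hu) hα, hFU, hFN⟩
  have h1 := hfix _ hβ
  obtain ⟨β, hβe⟩ : ∃ β, β = MulAut.conj u * α := ⟨_, rfl⟩
  rw [← hβe] at h1 hβ
  have e1 : α = MulAut.conj u⁻¹ * β := by rw [hβe, map_inv, inv_mul_cancel_left]
  have e2 : β * MulAut.conj t = MulAut.conj t * β := by rw [mul_conj_eq, h1]
  have e3 : MulAut.conj t * α * (MulAut.conj t)⁻¹ = MulAut.conj (t * u⁻¹ * t⁻¹) * β := by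
    have e4 : β * (MulAut.conj t)⁻¹ = (MulAut.conj t)⁻¹ * β := by
      rw [eq_inv_mul_iff_mul_eq, ← mul_assoc, ← e2, mul_inv_cancel_right]
    rw [e1, mul_assoc, mul_assoc, e4, map_mul, map_mul, map_inv, map_inv]
    group
  rw [e3]
  refine mul_mem (hUA _ ?_) hβ.1
  exact (Subgroup.mem_normalizer_iff.1 (RGD.T_le_normalizer_U R ht) _).1 (inv_mem hu)

end

/-- an element inverting a nontrivial `p`-element has even order (`p` odd) -/
theorem even_of_inv {G : Type*} [Group G] {p : ℕ} (hp : p.Prime) (hp2 : p ≠ 2) {w t : G} (hw1 : w ≠ 1)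
    (hwp : ∃ k : ℕ, w ^ p ^ k = 1) (h : t * w * t⁻¹ = w⁻¹) : Even (orderOf t) :=
  Cfsg.Agent.H467.OddNorm.even_of_inverts (Cfsg.Agent.H467.OddNorm.inv_ne_self hp hp2 hw1 hwp) h

section bond

variable [Finite W] [Finite Y] [hp : Fact p.Prime] (R : RGD cs h p T n X)

include R

/-- **The row of a root group datum with a simple bond at a rigid node.** -/
theorem evA_of_bond (h2 : p ≠ 2) (hG1 : RGD.Sup X {x | IsRoot cs h x} = ⊤) (hZ : Subgroup.center Y = ⊥)
    {i j : I} (hij : i ≠ j) (hM : M i j = 3)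
    (hfix : ∀ σ : Equiv.Perm I, (∀ a b, M (σ a) (σ b) = M a b) → (∃ k : ℕ, σ ^ p ^ k = 1) → σ j = j) :
    EvA p Y := by
  have hG := GG_eq_top (T := T) hG1
  refine evA_of_fixed R hG1 hZ fun E hE hEF => ?_
  -- the node `j` is fixed
  have hdiag : ∀ β ∈ E, ∃ σ, Diag T X β σ ∧ σ j = j := by
    intro β hβ
    obtain ⟨hU, hUN⟩ := mem_Frame.1 (hEF hβ)
    obtain ⟨σ, D⟩ := exists_diag R hG hU hUN
    obtain ⟨k, hk⟩ := hE ⟨β, hβ⟩
    have hk' : β ^ p ^ k = 1 := congrArg Subtype.val hk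
    refine ⟨σ, D, hfix σ (D.matrix R) ⟨k, ?_⟩⟩
    ext a
    have hD := D.pow (p ^ k)
    rw [hk'] at hD
    obtain ⟨u, hu, hu1⟩ := exists_ne_one R a
    exact Diag.apply_eq R hD hu hu1 rfl
  have hposF : ∀ β ∈ E, Fix β (X (sr j)) := by
    intro β hβ x
    obtain ⟨σ, D, hσ⟩ := hdiag β hβ
    have := D.pos j x
    rwa [hσ] at this
  have hnegF : ∀ β ∈ E, Fix β (X (-sr j)) := by
    intro β hβ x
    obtain ⟨σ, D, hσ⟩ := hdiag β hβ
    have := D.neg j x
    rwa [hσ] at this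
  obtain ⟨v, hv, hv1, hvf⟩ := exists_fixed_group hE hnegF (R.pgrp' (isRoot_sr cs h j).neg)
    (X_ne_bot R (isRoot_sr cs h j).neg)
  obtain ⟨a, ha, t, ht, b, hb, e⟩ := R.rk1 j v hv hv1
  obtain ⟨k, hke⟩ : ∃ k, k = t * n j := ⟨_, rfl⟩
  have hk : Rp cs R.nsys (cs.simple j) k := by
    have := (rp_of_mem (cs := cs) (hN := R.nsys) ht).mul (rp_simple cs R.nsys j)
    rwa [one_mul, ← hke] at this
  have e' : v = a * k * b := by rw [e, hke]; group
  have hkf : ∀ β ∈ E, β k = k := by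
    intro β hβ
    obtain ⟨σ, D, hσ⟩ := hdiag β hβ
    have hβk : Rp cs R.nsys (cs.simple j) (β k) := by
      have h1 := (rp_of_mem (cs := cs) (hN := R.nsys) ((D.tor t).2 ht)).mul (D.rp (R := R) j)
      rwa [one_mul, hσ, ← map_mul, ← hke] at h1
    have h3 : β a * β k * β b = a * k * b := by
      rw [← map_mul, ← map_mul, ← e', hvf β hβ, ]
    have hsub : X (sr j) ≤ RGD.Sup X (RGD.Pos cs h) :=
      RGD.le_Sup (S := RGD.Pos cs h) ⟨isRoot_sr cs h j, sr_nonneg j⟩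
    have hsub' : X (sr j) ≤ RGD.Sup X (NW cs h (cs.simple j)) :=
      RGD.le_Sup (S := NW cs h (cs.simple j))
        ⟨isRoot_sr cs h j, sr_nonneg j, by rw [rep_simple_sr]; exact neg_nonpos.2 (sr_nonneg j)⟩
    exact (normal_form_unique R (hsub ((hposF β hβ a).2 ha)) (hsub ha) hβk hk
      (hsub' ((hposF β hβ b).2 hb)) (hsub' hb) h3).2.1
  have hkk : k * k ∈ T := by
    have h1 := hk.mul hk
    rw [cs.simple_mul_simple_self] at h1
    exact h1.mem_of_one
  obtain ⟨w, hw, hw1⟩ := exists_ne_one R i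
  have hinv := inverts hij hM R (inv_mem ha) (inv_mem hb) hv hk (by rw [e']; group) hw
  have h3 : k * (k * w * k⁻¹) * k⁻¹ = (k * k) * w * (k * k)⁻¹ := by group
  rw [h3] at hinv
  obtain ⟨m, hm⟩ := R.pgrp i ⟨w, hw⟩
  have hm' : w ^ p ^ m = 1 := by simpa using congrArg Subtype.val hm
  exact ⟨k * k, hkk, even_of_inv hp.out h2 hw1 ⟨m, hm'⟩ hinv, fun β hβ => by rw [map_mul, hkf β hβ]⟩

end bond

open Cfsg.Agent.H681.GmnTypes in
theorem evA_of_rigid {p l : ℕ} {M : CoxeterMatrix (Fin l)} {G : Type*} [Group G] [Finite G] (hp : p.Prime)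
    (hp2 : p ≠ 2) (hM : Rigid p M) (hZ : Subgroup.center G = ⊥) (hG : Cfsg.Agent.Omega.ML.Ex.Typ.HasRGDT p M G) :
    EvA p G := by
  have : Fact p.Prime := ⟨hp⟩
  obtain ⟨A, h, T, n, X, hW, R, hX⟩ := hG
  obtain ⟨i, j, hij, h3, hf⟩ := hM
  exact evA_of_bond R hp2 hX hZ hij h3 hf

section sign

variable [Finite W] [Finite Y] [hp : Fact p.Prime] (R : RGD cs h p T n X)

include R

theorem evA_of_sign (hp2 : p ≠ 2) (hG1 : RGD.Sup X {x | IsRoot cs h x} = ⊤) (hZ : Subgroup.center Y = ⊥)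
    (hM : AllRigid p M) {t : Y} (ht : t ∈ T) (ht1 : t ≠ 1)
    (hs : ∀ i, (∀ x ∈ X (sr i), t * x * t⁻¹ = x) ∨ (∀ x ∈ X (sr i), t * x * t⁻¹ = x⁻¹)) : EvA p Y := by
  have hG := GG_eq_top (T := T) hG1
  -- `t` has even order
  have hte : Even (orderOf t) := by
    by_contra hcon
    apply ht1
    refine eq_one_of_cent R hG1 hZ ht fun i x hx => ?_
    rcases hs i with h1 | h1
    · exact h1 x hx
    · by_cases hx1 : x = 1
      · rw [hx1]; simp
      · exfalso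
        obtain ⟨m, hm⟩ := R.pgrp i ⟨x, hx⟩
        have hm' : x ^ p ^ m = 1 := by simpa using congrArg Subtype.val hm
        exact hcon (even_of_inv hp.out hp2 hx1 ⟨m, hm'⟩ (h1 x hx))
  refine evA_of_fixed R hG1 hZ fun E hE hEF => ⟨t, ht, hte, fun β hβ => ?_⟩
  obtain ⟨hU, hUN⟩ := mem_Frame.1 (hEF hβ)
  obtain ⟨σ, D⟩ := exists_diag R hG hU hUN
  have hσ : σ = 1 := by
    obtain ⟨k, hk⟩ := hE ⟨β, hβ⟩
    have hk' : β ^ p ^ k = 1 := congrArg Subtype.val hk
    refine hM σ (D.matrix R) ⟨k, ?_⟩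
    ext a
    have hD := D.pow (p ^ k)
    rw [hk'] at hD
    obtain ⟨u, hu, hu1⟩ := exists_ne_one R a
    exact Diag.apply_eq R hD hu hu1 rfl
  subst hσ
  have hβt : β t ∈ T := (D.tor t).2 ht
  have key : ∀ i, ∀ x ∈ X (sr i), β t * x * (β t)⁻¹ = t * x * t⁻¹ := by
    intro i x hx
    have hx' : β⁻¹ x ∈ X (sr i) := by
      have := (D.pos i (β⁻¹ x)).1
      rw [Equiv.Perm.one_apply, MulAut.apply_inv_self] at this
      exact this hx
    have e : β t * x * (β t)⁻¹ = β (t * β⁻¹ x * t⁻¹) := by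
      rw [map_mul, map_mul, map_inv, MulAut.apply_inv_self]
    rw [e]
    rcases hs i with h1 | h1
    · rw [h1 _ hx', h1 _ hx, MulAut.apply_inv_self]
    · rw [h1 _ hx', h1 _ hx, map_inv, MulAut.apply_inv_self]
  have h1 : t⁻¹ * β t = 1 := by
    refine eq_one_of_cent R hG1 hZ (mul_mem (inv_mem ht) hβt) fun i x hx => ?_
    have e : t⁻¹ * β t * x * (t⁻¹ * β t)⁻¹ = t⁻¹ * (β t * x * (β t)⁻¹) * t := by group
    rw [e, key i x hx]
    group
  rw [inv_mul_eq_one] at h1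
  exact h1.symm

end sign

/-- **classical involutions of long roots which are not simple** -/
theorem evA_of_cls [Fintype W] [Finite Y] [hp : Fact p.Prime] (hp2 : p ≠ 2) {R : Set (I → ℤ)}
    {Z : (I → ℤ) → Subgroup Y} {z : (I → ℤ) → Y} (C : Nodes.Chart.Cls cs h p T n X R Z z)
    (hG1 : RGD.Sup X {x | IsRoot cs h x} = ⊤) (hZ : Subgroup.center Y = ⊥) (hM : AllRigid p M) {r : I → ℤ}
    (hr : r ∈ R) (hnr : -r ∈ R) (hri : ∀ i, sr i ≠ r ∧ sr i ≠ -r) : EvA p Y := by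
  have hinv : ∀ i, form cs h (sr i) r ≠ 0 → ∀ x ∈ X (sr i), z r * x * (z r)⁻¹ = x⁻¹ := by
    intro i hf x hx
    rw [inv_eq_of_mul_eq_one_right (C.z_sq r hr)]
    exact C.z_inv r hr _ (isRoot_sr cs h i) (hri i).1 (hri i).2 hf x hx
  refine evA_of_sign C.rgd hp2 hG1 hZ hM (C.z_torus r hr) ?_ fun i => ?_
  · intro h1
    obtain ⟨i, hi⟩ : ∃ i, form cs h (sr i) r ≠ 0 := by
      by_contra hcon
      push Not at hcon
      have h2 := form_pos cs (h := h) (C.root r hr).ne_zero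
      rw [form_eq_sum, Finset.sum_eq_zero fun k _ => by rw [form_comm, hcon k, mul_zero]] at h2
      exact lt_irrefl _ h2
    obtain ⟨w, hw, hw1⟩ := exists_ne_one C.rgd i
    have h2 := hinv i hi w hw
    obtain ⟨m, hm⟩ := C.rgd.pgrp i ⟨w, hw⟩
    have hm' : w ^ p ^ m = 1 := by simpa using congrArg Subtype.val hm
    have h3 := even_of_inv hp.out hp2 hw1 ⟨m, hm'⟩ h2
    rw [h1, orderOf_one] at h3
    exact absurd h3 (by decide)
  · by_cases hf : form cs h (sr i) r = 0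
    · left
      intro x hx
      have h1 : ∀ b ∈ Z r, x * b = b * x := C.cent r hr _ (isRoot_sr cs h i) hf.ge x hx
      have h2 : ∀ b ∈ Z (-r), x * b = b * x := C.cent (-r) hnr _ (isRoot_sr cs h i) (by
        rw [form_neg_right, hf, neg_zero]) x hx
      have h3 : Z r ⊔ Z (-r) ≤ Subgroup.centralizer {x} := by
        rw [sup_le_iff]
        exact ⟨fun b hb => Subgroup.mem_centralizer_singleton_iff.2 (h1 b hb).symm,
          fun b hb => Subgroup.mem_centralizer_singleton_iff.2 (h2 b hb).symm⟩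
      have h4 := Subgroup.mem_centralizer_singleton_iff.1 (h3 (C.z_mem r hr))
      rw [h4, mul_inv_cancel_right]
    · right
      exact hinv i hf

end Cfsg.Agent.H791.OnRgd
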