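import Cfsg.Agent.H791.OnRgd

/-!
# The even order rows of S3855 in defining characteristic: rank two (helper791)
-/

set_option autoImplicit false
set_option linter.unusedSectionVars false

namespace Cfsg.Agent.H791.OnTwo

open Cfsg CoxeterSystem Cfsg.Agent.ChevalleyStructure.CoxeterGeom Cfsg.Agent.Tits.Roots Cfsg.Agent.Nodes.TypeC
open Cfsg.Agent.Nodes Cfsg.Agent.Nodes.Comb Cfsg.Agent.Nodes.Reps Cfsg.Agent.Nodes.WittRoot Cfsg.Agent.Nodes.BNOf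
open Cfsg.Agent.Nodes.WittRGD Cfsg.Agent.Nodes.RGDLib Cfsg.Agent.Nodes.TypeCForm Cfsg.Agent.Nodes.Chart
open Cfsg.Agent.TitsThree Cfsg.Agent.TitsThree.Siegel Cfsg.Agent.TitsThree.WittFrame
  Cfsg.Agent.TitsThree.WittWeyl Cfsg.Agent.TitsThree.FrameCN
open Cfsg.Agent.Nodes.ClsMap Cfsg.Agent.Nodes.ClsWitt Cfsg.Agent.Nodes.ChartTypeC
open Cfsg.Agent.H142.GmnPC Cfsg.Agent.H681.GmnRgd Cfsg.Agent.H681.GmnSign Cfsg.Agent.H681.GmnRankTwo
  Cfsg.Agent.H952.On Cfsg.Agent.H791.OnRgd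

section C2

variable {F : Type*} [Field F] {V : Type*} [AddCommGroup V] [Module F V] {H : HForm F V}
  {Fr : Frame H (Fin 2)} {K : Type*} [Group K] (M : Model Fr K) (hA : Amb Fr M.I)

include hA in
theorem evA_C2 [Finite K] [Finite V] {p0 : Fr.Adm} (hp0 : p0.c ≠ 0) (hw0 : p0.w = 0) {p : ℕ} [hp : Fact p.Prime]
    [CharP F p] (hp2 : p ≠ 2) (hZ : Subgroup.center K = ⊥) : EvA p K := by
  have C := cls_model M hA hp0 hw0 (hp.out.odd_of_ne_two hp2) (CoxeterMatrix.B 2).toCoxeterSystem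
  have : Finite (CoxeterMatrix.B 2).Group := finite_W (CoxeterMatrix.B 2).toCoxeterSystem
  obtain ⟨x, ex⟩ := exists_long (CoxeterMatrix.B 2).toCoxeterSystem ((0 : Fin 2), true)
  have hx : x ∈ LR 2 := ⟨_, ex⟩
  refine evA_of_cls hp2 C (WittModel.G1_eq_top M (by omega) _) hZ (allRigid_two hp.out hp2 _) hx (neg_mem C hx) ?_
  have key : ∀ i : Fin 2, bt i ≠ wt ((0 : Fin 2), true) + wt ((0 : Fin 2), true) ∧
      bt i ≠ -(wt ((0 : Fin 2), true) + wt ((0 : Fin 2), true)) := by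
    intro i
    fin_cases i <;> decide
  intro i
  refine ⟨fun e => (key i).1 ?_, fun e => (key i).2 ?_⟩
  · rw [← ee_sr, e, ex]
  · rw [← ee_sr, e, ee_neg, ex]

end C2

theorem evA_PSp_two {F : Type*} [Field F] [Finite F] {p : ℕ} [hp : Fact p.Prime] [CharP F p] (hp2 : p ≠ 2)
    (hZ : Subgroup.center (PSp 2 F) = ⊥) : EvA p (PSp 2 F) :=
  evA_C2 (KInstSp.model 2 F) WittU.amb_Sp (p0 := SpIdent.adm 1) one_ne_zero rfl hp2 hZ

open Cfsg.Agent.TitsThree.SiegelGen Cfsg.Agent.TitsThree.WBridge Cfsg.Agent.TitsThree.KSideU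
  Cfsg.Agent.TitsThree.KSideUDesc Cfsg.Agent.Nodes.WittU in
theorem evA_PSU_two {F : Type*} [Field F] [Fintype F] {q N : ℕ} (hF : Fintype.card F = q ^ 2)
    (hN : N = 4 ∨ N = 5) {p : ℕ} [hp : Fact p.Prime] [CharP F p] (hp2 : p ≠ 2)
    (hZ : Subgroup.center (PSU N F q) = ⊥) : EvA p (PSU N F q) := by
  obtain ⟨W, -⟩ := exists_wframe (m := 2) hF (by omega : N = 2 * 2 ∨ N = 2 * 2 + 1)
  obtain ⟨p0, hp0, hw0⟩ := exists_adm hF W
  exact evA_C2 (KInstU.model hF (by omega) W) (amb_U hF W) hp0 hw0 hp2 hZ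

section Inv

variable {I W Y : Type*} [Fintype I] [DecidableEq I] [Group W] [Group Y] {M : CoxeterMatrix I}
  {cs : CoxeterSystem M W} {A : I → I → ℤ} {h : IsCartan M A} {p : ℕ} {T : Subgroup Y} {n : I → Y}
  {X : (I → ℤ) → Subgroup Y}

theorem evA_of_inv [Finite W] [Finite Y] [hp : Fact p.Prime] (hp2 : p ≠ 2) (R : RGD cs h p T n X)
    (hG1 : RGD.Sup X {x | IsRoot cs h x} = ⊤) (hZ : Subgroup.center Y = ⊥) (hM : AllRigid p M) {t : Y} {r : I → ℤ}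
    (H : ClsInv.Inv cs h T X t r) {i : I} (hi : Odd (Coroot.cpr cs h (sr i) r)) : EvA p Y := by
  refine evA_of_sign R hp2 hG1 hZ hM H.mem (ne_one_of_inverts hp2 R (H.odd _ (isRoot_sr cs h i) hi)) fun j => ?_
  rcases Int.even_or_odd (Coroot.cpr cs h (sr j) r) with h1 | h1
  · exact Or.inl (H.even _ (isRoot_sr cs h j) h1)
  · exact Or.inr (H.odd _ (isRoot_sr cs h j) h1)

end Inv

section G2

open Cfsg.Lie Cfsg.Agent.Nodes.RGDChev

theorem evA_G2 {K : Type*} [Field K] [Finite K] {p : ℕ} [CharP K p] (hp2 : p ≠ 2)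
    (hZ : Subgroup.center ↥(chevG2.group K) = ⊥) : EvA p ↥(chevG2.group K) := by
  have hp : Fact p.Prime := ⟨CharP.char_is_prime K p⟩
  have hT : IsType chevG2 2 CoxeterMatrix.G₂ := by simp [IsType, typeList]
  have := RGDChev.finite_W hT CoxeterMatrix.G₂.toCoxeterSystem
  refine evA_of_inv hp2 (RGDChev.rgd (K := K) hT CoxeterMatrix.G₂.toCoxeterSystem p)
    (RGDChev.G1_eq_top hT _) hZ (allRigid_two hp.out hp2 _) (ChevCls.exists_inv hT _ 0) (i := 1) ?_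
  rw [Coroot.cpr_sr, ZFam.pairing_sr']
  decide +kernel

end G2

section D4

open Cfsg.Lie Cfsg.Agent.Nodes.RGDTwD4 Cfsg.Agent.KFacts.TwDFour.Out Cfsg.Agent.Nodes.RGDFoldSL
  Cfsg.Agent.KFacts.RgdField

theorem evA_twD4 {K : Type*} [Field K] [Fintype K] {q : ℕ} (hq : IsPrimePow q) (hK : Fintype.card K = q ^ 3)
    {p : ℕ} [CharP K p] (hp2 : p ≠ 2) (hZ : Subgroup.center ↥(twistedD4 K q) = ⊥) : EvA p ↥(twistedD4 K q) := by
  have hp : Fact p.Prime := ⟨CharP.char_is_prime K p⟩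
  obtain ⟨φ, hφ⟩ := ChevalleyStructure.D4Fixed.exists_frob hq hK
  have := Nodes.RGDFold.finite_W (hp := Nodes.RGDTwD4.hp) CoxeterMatrix.G₂.toCoxeterSystem Nodes.RGDTwD4.isCartan
    Nodes.RGDTwD4.foldData
  have R := Nodes.RGDTwD4.rgd CoxeterMatrix.G₂.toCoxeterSystem hK hφ p
  have h1 : (-1 : KD φ 0) ≠ 0 := neg_ne_zero.2 one_ne_zero
  have hc0 := chD_hS hφ hK 0 (-1) h1
  have hc1 := ch01 hφ hK (-1) h1
  have ht := PhiD_hS hφ hK 0 (-1) h1
  have hneg : ∀ x ∈ Nodes.RGDTwD4.X φ q (sr 1), PhiD hφ hK 0 (hS (-1)) * x * (PhiD hφ hK 0 (hS (-1)))⁻¹ = x⁻¹ := by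
    intro x hx
    obtain ⟨a, rfl⟩ := ((coordD hφ hK 1).mem x).1 hx
    rw [(coordD hφ hK 1).act _ ht, eq_inv_iff_mul_eq_one, ← (coordD hφ hK 1).add]
    have h2 : chD hφ hK 1 (PhiD hφ hK 0 (hS (-1))) = -1 := by
      apply Subtype.ext
      rw [hc1]
      simp
    rw [h2, neg_one_mul, neg_add_cancel]
    exact (coordD hφ hK 1).zero
  refine evA_of_sign R hp2 (Nodes.RGDTwD4.G1_eq_top _ hK hφ) hZ (allRigid_two hp.out hp2 _) ht
    (ne_one_of_inverts hp2 R hneg) fun i => ?_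
  fin_cases i
  · left
    intro x hx
    obtain ⟨a, rfl⟩ := ((coordD hφ hK 0).mem x).1 hx
    rw [(coordD hφ hK 0).act _ ht]
    have h2 : chD hφ hK 0 (PhiD hφ hK 0 (hS (-1))) = 1 := by
      rw [hc0]; simp
    rw [h2, one_mul]
  · exact Or.inr hneg

end D4

end Cfsg.Agent.H791.OnTwo
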