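import Cfsg.Agent.H747.RowTwo
import Cfsg.Agent.H791.RowAlt
import Cfsg.Prelude.Def_Classification2
import Cfsg.Prelude.Def_LieTypeChar

/-!
# S5161: assembly of the rows (helper791)

`Rows` lists what is needed for the families; `Rows.row` : every known nonabelian simple group satisfies `RowTwo`.
-/

set_option autoImplicit false

universe u

namespace Cfsg.Agent.H791.RowAll

open Cfsg.Agent.H747 Cfsg

/-- The rows of the families (all for simple groups in `Type u`). -/
structure Rows : Prop where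
  two : ∀ (K : Type u) [Group K] [Finite K] [IsSimpleGroup K], IsLieTypeChar 2 K → RowTwo K
  tits : ∀ (K : Type u) [Group K] [Finite K] [IsSimpleGroup K], Lie.IsoTits K → RowTwo K
  psl : ∀ (K : Type u) [Group K] [Finite K] [IsSimpleGroup K] (F : Type) [Field F] [Fintype F] (n : ℕ),
    Odd (Fintype.card F) → 2 ≤ n → (n = 2 → 4 ≤ Fintype.card F) →
    Nonempty (K ≃* Matrix.ProjectiveSpecialLinearGroup (Fin n) F) → RowTwo K
  psp : ∀ (K : Type u) [Group K] [Finite K] [IsSimpleGroup K] (F : Type) [Field F] [Fintype F] (m : ℕ),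
    Odd (Fintype.card F) → 2 ≤ m → Nonempty (K ≃* PSp m F) → RowTwo K
  psu : ∀ (K : Type u) [Group K] [Finite K] [IsSimpleGroup K] (F : Type) [Field F] [Fintype F] (n q : ℕ),
    Odd (Fintype.card F) → Fintype.card F = q ^ 2 → 3 ≤ n → Nonempty (K ≃* PSU n F q) → RowTwo K
  omegaOdd : ∀ (K : Type u) [Group K] [Finite K] [IsSimpleGroup K] (F : Type) [Field F] [Fintype F] (m : ℕ),
    Odd (Fintype.card F) → 3 ≤ m → Nonempty (K ≃* POmega F (quadFormOdd m F)) → RowTwo K
  omegaPlus : ∀ (K : Type u) [Group K] [Finite K] [IsSimpleGroup K] (F : Type) [Field F] [Fintype F] (m : ℕ),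
    Odd (Fintype.card F) → 4 ≤ m → Nonempty (K ≃* POmega F (quadFormPlus m F)) → RowTwo K
  omegaMinus : ∀ (K : Type u) [Group K] [Finite K] [IsSimpleGroup K] (F : Type) [Field F] [Fintype F] (m : ℕ)
    (a b : F), Odd (Fintype.card F) → 4 ≤ m →
    (∀ z₁ z₂ : F, z₁ ^ 2 + a * z₁ * z₂ + b * z₂ ^ 2 = 0 → z₁ = 0 ∧ z₂ = 0) →
    Nonempty (K ≃* POmega F (quadFormMinus (m - 1) F a b)) → RowTwo K
  g2 : ∀ (K : Type u) [Group K] [Finite K] [IsSimpleGroup K] (F : Type) [Field F] [Fintype F],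
    Odd (Fintype.card F) → Nonempty (K ≃* Lie.chevG2.group F) → RowTwo K
  f4 : ∀ (K : Type u) [Group K] [Finite K] [IsSimpleGroup K] (F : Type) [Field F] [Fintype F],
    Odd (Fintype.card F) → Nonempty (K ≃* Lie.chevF4.group F) → RowTwo K
  e6 : ∀ (K : Type u) [Group K] [Finite K] [IsSimpleGroup K] (F : Type) [Field F] [Fintype F],
    Odd (Fintype.card F) → Nonempty (K ≃* Lie.chevE6.group F) → RowTwo K
  e7 : ∀ (K : Type u) [Group K] [Finite K] [IsSimpleGroup K] (F : Type) [Field F] [Fintype F],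
    Odd (Fintype.card F) → Nonempty (K ≃* Lie.chevE7.group F) → RowTwo K
  e8 : ∀ (K : Type u) [Group K] [Finite K] [IsSimpleGroup K] (F : Type) [Field F] [Fintype F],
    Odd (Fintype.card F) → Nonempty (K ≃* Lie.chevE8.group F) → RowTwo K
  te6 : ∀ (K : Type u) [Group K] [Finite K] [IsSimpleGroup K] (F : Type) [Field F] [Fintype F] (q : ℕ),
    Odd (Fintype.card F) → IsPrimePow q → Fintype.card F = q ^ 2 → Nonempty (K ≃* Lie.twistedE6 F q) → RowTwo K
  td4 : ∀ (K : Type u) [Group K] [Finite K] [IsSimpleGroup K] (F : Type) [Field F] [Fintype F] (q : ℕ),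
    Odd (Fintype.card F) → IsPrimePow q → Fintype.card F = q ^ 3 → Nonempty (K ≃* Lie.twistedD4 F q) → RowTwo K
  ree : ∀ (K : Type u) [Group K] [Finite K] [IsSimpleGroup K], Lie.IsoRee K → RowTwo K
  spor : ∀ (K : Type u) [Group K] [Finite K] [IsSimpleGroup K], IsSporadicGroup K → RowTwo K

theorem odd_or_two (F : Type) [Field F] [Fintype F] : Odd (Fintype.card F) ∨ CharP F 2 := by
  rcases Nat.even_or_odd (Fintype.card F) with h | h
  · refine Or.inr ?_
    have h1 : ringChar F = 2 := FiniteField.even_card_iff_char_two.2 (Nat.even_iff.1 h)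
    exact h1 ▸ ringChar.charP F
  · exact Or.inl h

/-- **The rows give `RowTwo` for every known nonabelian simple group.** -/
theorem Rows.row (R : Rows.{u}) {K : Type u} [Group K] [Finite K] [IsSimpleGroup K]
    (hna : ¬ IsMulCommutative K) (h : IsKnownSimple' K) : RowTwo K := by
  have L2 : IsLieTypeChar 2 K → RowTwo K := fun h => R.two K h
  rcases h with h | h | h | h | h | h | h | h | h | h
  · exfalso
    have hp : Fact (Nat.card K).Prime := ⟨h⟩
    have : IsCyclic K := isCyclic_of_prime_card rfl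
    exact hna ⟨⟨fun a b => IsCyclic.commGroup.mul_comm a b⟩⟩
  · exact RowAlt.row_alt h
  · obtain ⟨F, _, _, n, hn, hn2, he⟩ := h
    rcases odd_or_two F with ho | hc
    · exact R.psl K F n ho hn hn2 he
    · exact L2 (Or.inl ⟨F, inferInstance, inferInstance, hc, n, hn, hn2, he⟩)
  · obtain ⟨F, _, _, m, hm, hm2, he⟩ := h
    rcases odd_or_two F with ho | hc
    · exact R.psp K F m ho hm he
    · exact L2 (Or.inr (Or.inl ⟨F, inferInstance, inferInstance, hc, m, hm, hm2, he⟩))
  · obtain ⟨F, _, _, n, q, hq, hn, hn2, he⟩ := h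
    rcases odd_or_two F with ho | hc
    · exact R.psu K F n q ho hq hn he
    · exact L2 (Or.inr (Or.inr (Or.inl ⟨F, inferInstance, inferInstance, hc, n, q, hq, hn, hn2, he⟩)))
  · obtain ⟨F, _, _, m, hm, ho, he⟩ := h
    exact R.omegaOdd K F m ho hm he
  · obtain ⟨F, _, _, m, hm, he⟩ := h
    rcases odd_or_two F with ho | hc
    · exact R.omegaPlus K F m ho hm he
    · exact L2 (Or.inr (Or.inr (Or.inr (Or.inr (Or.inl ⟨F, inferInstance, inferInstance, hc, m, hm, he⟩)))))
  · obtain ⟨F, _, _, m, a, b, hm, hab, he⟩ := h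
    rcases odd_or_two F with ho | hc
    · exact R.omegaMinus K F m a b ho hm hab he
    · exact L2 (Or.inr (Or.inr (Or.inr (Or.inr (Or.inr (Or.inl ⟨F, inferInstance, inferInstance, hc, m, a, b, hm, hab, he⟩))))))
  · rcases h with h | h | h | h | h | h | h | h | h | h | h
    · obtain ⟨F, _, _, h3, he⟩ := h
      rcases odd_or_two F with ho | hc
      · exact R.g2 K F ho he
      · exact L2 (Or.inr (Or.inr (Or.inr (Or.inr (Or.inr (Or.inr (Or.inl ⟨F, inferInstance, inferInstance, hc, Or.inl ⟨h3, he⟩⟩)))))))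
    · obtain ⟨F, _, _, he⟩ := h
      rcases odd_or_two F with ho | hc
      · exact R.f4 K F ho he
      · exact L2 (Or.inr (Or.inr (Or.inr (Or.inr (Or.inr (Or.inr (Or.inl ⟨F, inferInstance, inferInstance, hc, Or.inr (Or.inl he)⟩)))))))
    · obtain ⟨F, _, _, he⟩ := h
      rcases odd_or_two F with ho | hc
      · exact R.e6 K F ho he
      · exact L2 (Or.inr (Or.inr (Or.inr (Or.inr (Or.inr (Or.inr (Or.inl
          ⟨F, inferInstance, inferInstance, hc, Or.inr (Or.inr (Or.inl he))⟩)))))))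
    · obtain ⟨F, _, _, he⟩ := h
      rcases odd_or_two F with ho | hc
      · exact R.e7 K F ho he
      · exact L2 (Or.inr (Or.inr (Or.inr (Or.inr (Or.inr (Or.inr (Or.inl
          ⟨F, inferInstance, inferInstance, hc, Or.inr (Or.inr (Or.inr (Or.inl he)))⟩)))))))
    · obtain ⟨F, _, _, he⟩ := h
      rcases odd_or_two F with ho | hc
      · exact R.e8 K F ho he
      · exact L2 (Or.inr (Or.inr (Or.inr (Or.inr (Or.inr (Or.inr (Or.inl
          ⟨F, inferInstance, inferInstance, hc, Or.inr (Or.inr (Or.inr (Or.inr he)))⟩)))))))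
    · obtain ⟨F, _, _, q, hq, hF, he⟩ := h
      rcases odd_or_two F with ho | hc
      · exact R.te6 K F q ho hq hF he
      · exact L2 (Or.inr (Or.inr (Or.inr (Or.inr (Or.inr (Or.inr (Or.inr (Or.inl
          ⟨F, inferInstance, inferInstance, hc, q, hq, Or.inl ⟨hF, he⟩⟩))))))))
    · obtain ⟨F, _, _, q, hq, hF, he⟩ := h
      rcases odd_or_two F with ho | hc
      · exact R.td4 K F q ho hq hF he
      · exact L2 (Or.inr (Or.inr (Or.inr (Or.inr (Or.inr (Or.inr (Or.inr (Or.inl
          ⟨F, inferInstance, inferInstance, hc, q, hq, Or.inr ⟨hF, he⟩⟩))))))))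
    · exact L2 (Or.inr (Or.inr (Or.inr (Or.inr (Or.inr (Or.inr (Or.inr (Or.inr (Or.inl ⟨rfl, h⟩)))))))))
    · exact R.ree K h
    · exact L2 (Or.inr (Or.inr (Or.inr (Or.inr (Or.inr (Or.inr (Or.inr (Or.inr (Or.inr (Or.inl ⟨rfl, h⟩))))))))))
    · exact R.tits K h
  · exact R.spor K h

end Cfsg.Agent.H791.RowAll
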